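import Cfsg.Agent.CentralExt.TwCells.Lift
import Cfsg.Agent.ChevTw.TwBN

/-!
# The lifted cell decomposition of a central extension of a twisted group (owner: helper85)

For a prime `r` dividing neither `|U|` nor `|N|` a stem extension with `r`-kernel of a twisted group splits
if it splits over the groups generated by the opposite root groups of each orbit.
-/

set_option autoImplicit false
set_option linter.style.haveILetI false

namespace Cfsg.Agent.CentralExt.TwCells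

open Cfsg.Lie Cfsg.Agent.ChevGrp Cfsg.Agent.ChevTw
open scoped commutatorElement

variable {D : ChevalleyDatum} {F : Type*} [Field F] {G : Type*} [Group G] {len : ℕ → ℕ}
  {S : Sys D F G} {T : Twist S} {ι : Type*} {O : Orbits T ι} (W : TwGroup O)

/-- The group generated by the two opposite root groups of an orbit. -/
def levi (J : ι) : Subgroup G :=
  Subgroup.closure (fixUS T (O.posJ J) ∪ fixUS T (O.negJ J))

theorem levi_le (J : ι) : levi (O := O) J ≤ W.Tw := by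
  rw [levi, Subgroup.closure_le]
  rintro g (hg | hg)
  · exact W.fixPos_mem J hg
  · exact W.fixNeg_mem J hg

theorem act_wJ_reverse (hR : RootTable D len) (J : ι) {s : ℕ} (hs : s < D.nroots) :
    act D (O.wJ J).reverse s = act D (O.wJ J) s := by
  conv_lhs => rw [← O.winv J s hs]
  exact hR.act_reverse_act _ (hR.act_lt _ hs)

/-- The negative part of an orbit is the conjugate of the positive part. -/
theorem conj_neg_pos (hS : Rules D F) (hR : RootTable D len) (J : ι) {v : G}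
    (hv : v ∈ fixUS T (O.negJ J)) :
    (W.nJ hS hR J)⁻¹ * v * W.nJ hS hR J ∈ fixUS T (O.posJ J) := by
  obtain ⟨-, hsc, hsT⟩ := W.nJ_spec hS hR J
  have h := W.conj_neg_fix (inv_mem hsT) (hsc.inv hR) (B := O.posJ J) O.negJ_lt
    (fun s hs => by rw [act_wJ_reverse hR J hs.1.1]; exact O.act_wJ_mem' hR J hs) hv
  rwa [inv_inv] at h

theorem posJ_mem_U (J : ι) {u : G} (hu : u ∈ fixUS T (O.posJ J)) : u ∈ S.Ubar ⊓ W.Tw :=
  Subgroup.mem_inf.2 ⟨S.US_mono (fun r hr => hr.1) hu.1, W.fixPos_mem J hu⟩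

theorem inv_mul_mem_of_finite {Δ : Type*} [Group Δ] [Finite Δ] {C : Set Δ} {g : Δ}
    (h : ∀ e ∈ C, g * e ∈ C) : ∀ e ∈ C, g⁻¹ * e ∈ C := by
  have hp : ∀ k : ℕ, ∀ e ∈ C, g ^ k * e ∈ C := fun k => by
    induction k with
    | zero => intro e he; simpa using he
    | succ k ih => intro e he; rw [pow_succ, mul_assoc]; exact ih _ (h e he)
  intro e he
  have hg : g⁻¹ = g ^ (orderOf g - 1) := by
    refine inv_eq_of_mul_eq_one_right ?_
    rw [← pow_succ', Nat.sub_add_cancel (orderOf_pos g), pow_orderOf_eq_one]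
  rw [hg]
  exact hp _ e he

theorem not_dvd_card_schurMult (hS : Rules D F) (hR : RootTable D len) {ks0 : List ι} (h0 : IsLongest O ks0)
    [Finite ↥W.Tw] {r : ℕ} [Fact r.Prime] (hU : ¬ r ∣ Nat.card ↥(S.Ubar ⊓ W.Tw))
    (hN : ¬ r ∣ Nat.card ↥(S.Nbar ⊓ W.Tw)) (hJ : ∀ J, ¬ r ∣ Nat.card (schurMult ↥(levi (O := O) J))) :
    ¬ r ∣ Nat.card (schurMult ↥W.Tw) := by
  refine not_dvd_card_schurMult_of_forall r fun Δ _ _ τ hτ hk => ?_
  set f : Δ →* G := W.Tw.subtype.comp τ with hfdef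
  have hfk : f.ker = τ.ker := by
    ext x
    simp [hfdef, MonoidHom.mem_ker]
  have hfc : f.ker ≤ Subgroup.center Δ := hfk ▸ hτ.2.1
  have hfp : IsPGroup r f.ker := by rw [hfk]; exact hk
  have hrange : f.range = W.Tw := by
    rw [hfdef, MonoidHom.range_comp, MonoidHom.range_eq_top.2 hτ.1, ← MonoidHom.range_eq_map,
      Subgroup.range_subtype]
  set U := S.Ubar ⊓ W.Tw with hUdef
  set N := S.Nbar ⊓ W.Tw with hNdef
  obtain ⟨U', hU'm, hU'k, hU'⟩ := exists_lift hfc hfp (K := U) (hrange.symm ▸ inf_le_right) hU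
  obtain ⟨N', hN'm, hN'k, hN'⟩ := exists_lift hfc hfp (K := N) (hrange.symm ▸ inf_le_right) hN
  have liftU : ∀ u ∈ U, ∃ u' ∈ U', f u' = u := fun u hu => by
    rw [← hU'm] at hu; exact hu
  have liftN : ∀ n ∈ N, ∃ n' ∈ N', f n' = n := fun n hn => by
    rw [← hN'm] at hn; exact hn
  have fU : ∀ {x}, x ∈ U' → f x ∈ U := fun {x} hx => ((hU' x).1 hx).1
  have fN : ∀ {x}, x ∈ N' → f x ∈ N := fun {x} hx => ((hN' x).1 hx).1
  have conjU : ∀ {x a : Δ}, a ∈ U' → f x * f a * (f x)⁻¹ ∈ U → x * a * x⁻¹ ∈ U' := fun {x a} ha h =>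
    (hU' _).2 ⟨by rw [map_mul, map_mul, map_inv]; exact h, by
      rw [conj_pow, ((hU' a).1 ha).2, mul_one, mul_inv_cancel]⟩
  choose s hs hfs using fun J => liftN (W.nJ hS hR J)
    (Subgroup.mem_inf.2 ⟨(W.nJ_spec hS hR J).1, (W.nJ_spec hS hR J).2.2⟩)
  have hvU : ∀ J, ∀ c ∈ U', f c ∈ fixUS T (O.posJ J) →
      f (s J * c * (s J)⁻¹) ∈ fixUS T (O.negJ J) := fun J c _ hc => by
    rw [map_mul, map_mul, map_inv, hfs]
    obtain ⟨-, hsc, hsT⟩ := W.nJ_spec hS hR J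
    exact W.conj_neg_fix hsT hsc O.posJ_lt (fun r hr => O.act_wJ_mem hR J hr) hc
  let SL : ι → Set Δ := fun J =>
    {x | x ^ Nat.card ↥U = 1 ∧ (f x ∈ fixUS T (O.posJ J) ∨ f x ∈ fixUS T (O.negJ J))}
  have hL : ∀ J, Subgroup.closure (SL J) ⊓ f.ker = ⊥ := fun J => by
    refine inf_ker_eq_bot hfc hfp _ (levi (O := O) J) ?_ (hJ J) rfl hU fun x hx => hx.1
    rw [MonoidHom.map_closure, levi]
    congr 1
    refine Set.Subset.antisymm ?_ ?_
    · rintro _ ⟨x, hx, rfl⟩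
      exact hx.2
    · rintro g (hg | hg)
      · obtain ⟨u', hu', rfl⟩ := liftU g (posJ_mem_U W J hg)
        exact ⟨u', ⟨((hU' u').1 hu').2, Or.inl hg⟩, rfl⟩
      · obtain ⟨c', hc', e⟩ := liftU _ (posJ_mem_U W J (conj_neg_pos W hS hR J hg))
        refine ⟨s J * c' * (s J)⁻¹, ⟨?_, Or.inr ?_⟩, ?_⟩
        · rw [conj_pow, ((hU' c').1 hc').2, mul_one, mul_inv_cancel]
        · rwa [map_mul, map_mul, map_inv, hfs, e, ← mul_assoc, mul_inv_cancel_left, mul_inv_cancel_right]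
        · rw [map_mul, map_mul, map_inv, hfs, e, ← mul_assoc, mul_inv_cancel_left, mul_inv_cancel_right]
  -- the rank one relation holds for the lifts
  have hkey : ∀ J, ∀ c ∈ U', f c ∈ fixUS T (O.posJ J) → f c ≠ 1 →
      ∃ c1 ∈ U', ∃ u1 ∈ U', ∃ nv ∈ N', f u1 ∈ fixUS T (O.posJ J) ∧
        s J * c * (s J)⁻¹ = c1 * nv * u1 := by
    intro J c hc hcJ hc1
    obtain ⟨c1, hc1J, u1, hu1J, nv, hnv, hnvc, hnvT, e⟩ := W.neg_decomp hS hR J (hvU J c hc hcJ)
      (fun h => hc1 (by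
        rw [map_mul, map_mul, map_inv] at h
        simpa using h))
    obtain ⟨c1', hc1', rfl⟩ := liftU c1 (posJ_mem_U W J hc1J)
    obtain ⟨u1', hu1', rfl⟩ := liftU u1 (posJ_mem_U W J hu1J)
    obtain ⟨nv', hnv', rfl⟩ := liftN nv (Subgroup.mem_inf.2 ⟨hnv, hnvT⟩)
    refine ⟨c1', hc1', u1', hu1', nv', hnv', hu1J, ?_⟩
    have hxL : c1'⁻¹ * (s J * c * (s J)⁻¹) * u1'⁻¹ ∈ Subgroup.closure (SL J) :=
      mul_mem (mul_mem (inv_mem (Subgroup.subset_closure ⟨((hU' _).1 hc1').2, Or.inl hc1J⟩))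
        (Subgroup.subset_closure ⟨by rw [conj_pow, ((hU' c).1 hc).2, mul_one, mul_inv_cancel],
          Or.inr (hvU J c hc hcJ)⟩)) (inv_mem (Subgroup.subset_closure ⟨((hU' _).1 hu1').2, Or.inl hu1J⟩))
    generalize hxdef : c1'⁻¹ * (s J * c * (s J)⁻¹) * u1'⁻¹ = x at hxL
    have hfx : f x = f nv' := by
      rw [← hxdef, map_mul f, map_mul f, map_inv f c1', map_inv f u1', e]
      group
    have hx1 : x ^ Nat.card ↥N = 1 := by
      have hz : x ^ Nat.card ↥N ∈ Subgroup.closure (SL J) ⊓ f.ker := by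
        refine Subgroup.mem_inf.2 ⟨pow_mem hxL _, ?_⟩
        rw [MonoidHom.mem_ker, map_pow, hfx, ← map_pow, ((hN' nv').1 hnv').2, map_one]
      rwa [hL J, Subgroup.mem_bot] at hz
    rw [← eq_of_pow hfc hfp hfx hN hx1 ((hN' nv').1 hnv').2, ← hxdef]
    group
  -- the cells
  let C : Set Δ := {e | ∃ u ∈ U', ∃ n ∈ N', ∃ v ∈ U', e = u * n * v}
  have hsC : ∀ J, ∀ e ∈ C, s J * e ∈ C := by
    rintro J _ ⟨u, hu, n, hn, v, hv, rfl⟩
    obtain ⟨hsN, hsc, hsT⟩ := W.nJ_spec hS hR J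
    obtain ⟨huU, hufix⟩ := (W.fixUbar_eq hS hR (O.comm_word hR ks0) (h0.invSet_eq hR)).1 (fU hu)
    set A : Set ℕ := {i | D.IsPosRoot i ∧ ¬ D.InRootSub (O.nodes J) i} with hA
    have hAc : UClosed D len (htHom D) A := by
      rw [hA, ← hR.degPos_outJ_eq]
      exact hR.posSet_closed.subset_closed (fun i hi => hR.pos_of_degPos _ hi)
        fun i hi k hk hne c hc => (hR.degPos_closed _).closed i hi k hk hne c hc
    obtain ⟨a, ha, c, hc, huac⟩ := S.US_eq_mul hR hR.posSet_closed hAc (O.posJ_closed hR J)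
      (Set.ext fun i => ⟨fun h => h.elim (fun h => h.1) fun h => h.1, fun h => by
        by_cases hJ : D.InRootSub (O.nodes J) i
        · exact Or.inr ⟨h, hJ⟩
        · exact Or.inl ⟨h, hJ⟩⟩)
      (Set.disjoint_left.2 fun i h1 h2 => h1.2 h2.2) huU
    have hAlt : ∀ i ∈ A, i < D.nroots := fun i hi => hi.1.1
    have hAρ : ∀ i ∈ A, T.ρ i ∈ A := fun i hi =>
      ⟨T.ρ_pos i hi.1, fun hin => O.ρ_out hR J hi.1 (fun h => hi.2 h.2) ⟨T.ρ_pos i hi.1, hin⟩⟩
    rw [huac, T.sig_mul a (Twist.US_le_Gbar hAlt ha) c (Twist.US_le_Gbar O.posJ_lt hc)] at hufix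
    obtain ⟨ea, ec⟩ := split_unique hS hR O J (T.sig_US hAlt hAρ ha) ha
      (posJ_le_LJ O J (T.sig_US O.posJ_lt (fun i hi => O.ρ_posJ hR J hi) hc)) (posJ_le_LJ O J hc) hufix
    obtain ⟨c', hc', hfc'⟩ := liftU c (posJ_mem_U W J ⟨hc, ec⟩)
    set a' := u * c'⁻¹ with ha'
    have ha'U : a' ∈ U' := mul_mem hu (inv_mem hc')
    have hfa : f a' = a := by rw [ha', map_mul, map_inv, hfc', huac, mul_inv_cancel_right]
    have hsa : s J * a' * (s J)⁻¹ ∈ U' := conjU ha'U (by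
      rw [hfs, hfa]
      exact W.conj_pos_mem hS hR h0 hsT hsc hAlt
        (fun i hi => (O.act_wJ_out hR J hi.1 fun h => hi.2 h.2).1) ⟨ha, ea⟩)
    suffices h : ∃ u₂ ∈ U', ∃ n₂ ∈ N', ∃ v₂ ∈ U', s J * c' * n = u₂ * n₂ * v₂ by
      obtain ⟨u₂, hu₂, n₂, hn₂, v₂, hv₂, e⟩ := h
      refine ⟨s J * a' * (s J)⁻¹ * u₂, mul_mem hsa hu₂, n₂, hn₂, v₂ * v, mul_mem hv₂ hv, ?_⟩
      calc s J * (u * n * v) = (s J * a' * (s J)⁻¹) * (s J * c' * n) * v := by rw [ha']; group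
        _ = _ := by rw [e]; group
    obtain ⟨hnN, hnT⟩ := Subgroup.mem_inf.1 (fN hn)
    obtain ⟨w, hw⟩ := TwGroup.conjP_of_mem_Nbar hS hR hnN
    have hwr : T.Comm w.reverse := (W.comm_of_conjP hS hR hnT hw).reverse hR
    have hfc'J : f c' ∈ fixUS T (O.posJ J) := by rw [hfc']; exact ⟨hc, ec⟩
    by_cases hd : ∀ i ∈ O.posJ J, D.IsPosRoot (act D w.reverse i)
    · refine ⟨1, one_mem _, s J * n, mul_mem (hs J) hn, n⁻¹ * c' * n, ?_, by group⟩
      have h1 := conjU (x := n⁻¹) hc' (by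
        have h2 := W.conj_pos_mem hS hR h0 (inv_mem hnT) (hw.inv hR) O.posJ_lt hd hfc'J
        rwa [map_inv])
      rwa [inv_inv] at h1
    by_cases hc1 : f c' = 1
    · have : c' = 1 := eq_one_of_pow hfp hc1 ((hU' c').1 hc').2 hU
      exact ⟨1, one_mem _, s J * n, mul_mem (hs J) hn, 1, one_mem _, by rw [this]; group⟩
    obtain ⟨c1, hc1U, u1, hu1U, nv, hnvN, hu1J, e⟩ := hkey J c' hc' hfc'J hc1
    push Not at hd
    obtain ⟨i₀, hi₀, hi₀n⟩ := hd
    obtain ⟨i, hiJ, hi⟩ : ∃ i : Fin D.rank, (i : ℕ) ∈ O.nodes J ∧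
        ¬ D.IsPosRoot (act D w.reverse (D.simple i)) := by
      by_contra hcon
      push Not at hcon
      exact hi₀n (pos_of_support hR _ _ hcon hi₀.1 hi₀.2)
    obtain ⟨-, hdis, -, -⟩ := O.descend hR hwr
      (O.orbit_neg hR hwr hiJ (hR.neg_of_not_pos (hR.act_lt _ (hR.simple_lt i i.2)) hi))
    -- `(s n)⁻¹ u1 (s n)` is positive
    have hn0c : S.ConjP (f (s J) * f n)⁻¹ (w.reverse ++ (O.wJ J).reverse) := by
      rw [hfs, mul_inv_rev]
      exact (hw.inv hR).mul hR (hsc.inv hR)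
    have hpos0 : ∀ i ∈ O.posJ J, D.IsPosRoot (act D (w.reverse ++ (O.wJ J).reverse) i) := fun i hi => by
      rw [act_append, act_wJ_reverse hR J hi.1.1, ← act_append]
      by_contra hneg
      exact Set.disjoint_left.1 hdis hi ⟨hi.1, hR.neg_of_not_pos (hR.act_lt _ hi.1.1) hneg⟩
    have hsnT : f (s J) * f n ∈ W.Tw := mul_mem (hfs J ▸ hsT) hnT
    have hu1' : (s J * n)⁻¹ * u1 * (s J * n) ∈ U' := by
      have h1 := conjU (x := (s J * n)⁻¹) hu1U (by
        rw [map_inv, map_mul]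
        exact W.conj_pos_mem hS hR h0 (inv_mem hsnT) hn0c O.posJ_lt hpos0 hu1J)
      rwa [inv_inv] at h1
    refine ⟨c1, hc1U, nv * (s J * n), mul_mem hnvN (mul_mem (hs J) hn), _, hu1', ?_⟩
    calc s J * c' * n = (s J * c' * (s J)⁻¹) * (s J * n) := by group
      _ = (c1 * nv * u1) * (s J * n) := by rw [e]
      _ = _ := by group
  let H' : Subgroup Δ := Subgroup.closure ((U' : Set Δ) ∪ Set.range s)
  have hH'C : ∀ e ∈ H', e ∈ C := by
    have hgen : ∀ g ∈ (U' : Set Δ) ∪ Set.range s, ∀ e ∈ C, g * e ∈ C := by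
      rintro g (hg | ⟨J, rfl⟩)
      · rintro _ ⟨u, hu, n, hn, v, hv, rfl⟩
        exact ⟨g * u, mul_mem hg hu, n, hn, v, hv, by group⟩
      · exact hsC J
    intro e he
    induction he using Subgroup.closure_induction_left with
    | one => exact ⟨1, one_mem _, 1, one_mem _, 1, one_mem _, by group⟩
    | mul_left g hg y _ ihy => exact hgen g hg y ihy
    | inv_mul_cancel g hg y _ ihy => exact inv_mul_mem_of_finite (hgen g hg) y ihy
  have htop : H' = ⊤ := by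
    have h1 : W.Tw ≤ H'.map f := by
      rw [W.gen, Subgroup.closure_le]
      rintro g ⟨J, hg | hg⟩
      · obtain ⟨u', hu', rfl⟩ := liftU g (posJ_mem_U W J hg)
        exact ⟨u', Subgroup.subset_closure (Or.inl hu'), rfl⟩
      · obtain ⟨c', hc', e⟩ := liftU _ (posJ_mem_U W J (conj_neg_pos W hS hR J hg))
        refine ⟨s J * c' * (s J)⁻¹, mul_mem (mul_mem (Subgroup.subset_closure (Or.inr ⟨J, rfl⟩))
          (Subgroup.subset_closure (Or.inl hc'))) (inv_mem (Subgroup.subset_closure (Or.inr ⟨J, rfl⟩))), ?_⟩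
        rw [map_mul, map_mul, map_inv, hfs, e]
        group
    refine eq_top_of_sup_ker hτ (top_le_iff.1 fun e _ => ?_)
    obtain ⟨e', he', hee⟩ := h1 (τ e).2
    rw [show e = e' * (e'⁻¹ * e) by group]
    refine mul_mem (Subgroup.mem_sup_left he') (Subgroup.mem_sup_right ?_)
    rw [← hfk, MonoidHom.mem_ker, map_mul, map_inv, inv_mul_eq_one]
    exact hee
  rw [← hfk, eq_bot_iff]
  intro z hz
  obtain ⟨u, hu, n, hn, v, hv, rfl⟩ := hH'C z (htop ▸ Subgroup.mem_top z)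
  have hn1 : f n = 1 := by
    have e : f u * f n * f v = 1 := by rw [← map_mul, ← map_mul]; exact hz
    have e' : f n = (f u)⁻¹ * (f v)⁻¹ := by
      calc f n = (f u)⁻¹ * (f u * f n * f v) * (f v)⁻¹ := by group
        _ = _ := by rw [e, mul_one]
    have hUb : f n ∈ S.Ubar := e' ▸ mul_mem (inv_mem (fU hu).1) (inv_mem (fU hv).1)
    have hH : f n ∈ S.Ubar ⊓ S.Hbar := Subgroup.mem_inf.2 ⟨hUb, by
      rw [← S.Bbar_inf_Nbar hS hR]
      exact Subgroup.mem_inf.2 ⟨S.Ubar_le_Bbar hUb, (fN hn).1⟩⟩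
    rwa [S.Ubar_inf_Hbar hS hR, Subgroup.mem_bot] at hH
  have hn' : n = 1 := by
    have h1 : n ∈ N' ⊓ f.ker := Subgroup.mem_inf.2 ⟨hn, hn1⟩
    rwa [hN'k, Subgroup.mem_bot] at h1
  rw [hn', mul_one] at hz ⊢
  rw [← hU'k]
  exact Subgroup.mem_inf.2 ⟨mul_mem hu hv, hz⟩

end Cfsg.Agent.CentralExt.TwCells
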