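import Cfsg.Agent.CentralExt.TwCells.LeviRep
import Cfsg.Agent.ChevTwOrd.F4
import Cfsg.Agent.LieTori.TorusAct

/-!
# The odd part of the multiplier of ²F₄(q) (owner: helper85)
-/

set_option autoImplicit false
set_option linter.style.haveILetI false

namespace Cfsg.Agent.CentralExt.TwCells

open Cfsg.Lie Cfsg.Agent.ChevGrp Cfsg.Agent.ChevTw
open scoped commutatorElement

/-- The roots normalised linearly by the first orbit. -/
def famA0 : Fin 2 → ℕ := ![27, 34]

/-- The roots normalised linearly by the second orbit; the last one is centralised. -/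
def famA1 : Fin 5 → ℕ := ![24, 26, 31, 32, 29]

theorem linData_famA0 : LinData chevF4 famA0 {r | r ∈ [33, 24, 14, 23]} where
  inj := by decide +kernel
  pos := by decide +kernel
  comm := by decide +kernel
  ne := by
    show ∀ r ∈ [33, 24, 14, 23], ∀ i, r < chevF4.nroots ∧ famA0 i ≠ r ∧ famA0 i ≠ chevF4.neg r
    decide +kernel
  lin := by
    show ∀ r ∈ [33, 24, 14, 23], ∀ i, ∀ c ∈ chevF4.commTerms r (famA0 i),
      (∃ j, famA0 j = c.1) ∧ c.2.2.2 = 1
    decide +kernel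

theorem linData_famA1 : LinData chevF4 famA1 {r | r ∈ [27, 25, 28, 30, 20, 22, 19, 17]} where
  inj := by decide +kernel
  pos := by decide +kernel
  comm := by decide +kernel
  ne := by
    show ∀ r ∈ [27, 25, 28, 30, 20, 22, 19, 17], ∀ i,
      r < chevF4.nroots ∧ famA1 i ≠ r ∧ famA1 i ≠ chevF4.neg r
    decide +kernel
  lin := by
    show ∀ r ∈ [27, 25, 28, 30, 20, 22, 19, 17], ∀ i, ∀ c ∈ chevF4.commTerms r (famA1 i),
      (∃ j, famA1 j = c.1) ∧ c.2.2.2 = 1
    decide +kernel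

theorem orbit_facts : twF4.posList ⟨0, by decide⟩ = [33, 24] ∧ twF4.posList ⟨1, by decide⟩ = [27, 25, 28, 30] ∧
    (twF4.posList ⟨0, by decide⟩).map chevF4.neg = [14, 23] ∧
    (twF4.posList ⟨1, by decide⟩).map chevF4.neg = [20, 22, 19, 17] ∧
    act chevF4 (twF4.wJ chevF4 ⟨0, by decide⟩) 34 ≠ 34 ∧ act chevF4 (twF4.wJ chevF4 ⟨1, by decide⟩) 32 ≠ 32 ∧
    (∀ r ∈ [33, 24], r < chevF4.nroots ∧ 34 ≠ r ∧ 34 ≠ chevF4.neg r ∧ chevF4.commTerms r 34 = []) ∧
    (∀ r ∈ [27, 25, 28, 30], r < chevF4.nroots ∧ 32 ≠ r ∧ 32 ≠ chevF4.neg r ∧ chevF4.commTerms r 32 = []) ∧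
    (∀ r ∈ [27, 25, 28, 30, 20, 22, 19, 17], r < chevF4.nroots ∧ 29 ≠ r ∧ 29 ≠ chevF4.neg r ∧
      ∀ c ∈ chevF4.commTerms r 29, c.1 < chevF4.nroots ∧ (2 : ℤ) ∣ c.2.1) ∧
    34 < chevF4.nroots ∧ 32 < chevF4.nroots := by decide +kernel

variable {K : Type*} [Field K] [Fintype K] {m : ℕ} (hK : Fintype.card K = 2 ^ (2 * m + 1))

include hK in
theorem card_UT : Nat.card ↥((glSys (rulesF4 K)).Ubar ⊓ twistedF4 K (2 ^ m)) = (2 ^ (2 * m + 1)) ^ 12 := by
  have h := thm_S1090 hK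
  rwa [posUnipotent_eq (rulesF4 K)] at h

include hK in
theorem card_HT :
    Nat.card ↥((glSys (rulesF4 K)).Hbar ⊓ twistedF4 K (2 ^ m)) = (2 ^ (2 * m + 1) - 1) ^ 2 := by
  obtain ⟨len, hR⟩ := (rulesF4 K).root
  have h := thm_S1110 hK
  rwa [diagonalSubgroup_eq (rulesF4 K) hR] at h

include hK in
theorem card_NT :
    Nat.card ↥((glSys (rulesF4 K)).Nbar ⊓ twistedF4 K (2 ^ m)) = 16 * (2 ^ (2 * m + 1) - 1) ^ 2 := by
  obtain ⟨len, hR⟩ := (rulesF4 K).root
  obtain ⟨φ, hφ, hker⟩ := thm_S1111 hK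
  have h := Subgroup.card_eq_card_quotient_mul_card_subgroup φ.ker
  rw [Nat.card_congr (QuotientGroup.quotientKerEquivOfSurjective φ hφ).toEquiv, hker, DihedralGroup.nat_card,
    Nat.card_congr (Subgroup.subgroupOfEquivOfLe ?_).toEquiv] at h
  · rw [diagonalSubgroup_eq (rulesF4 K) hR, card_HT hK] at h
    rwa [monomialSubgroup_eq (rulesF4 K) hR] at h
  · rw [monomialSubgroup_eq (rulesF4 K) hR, diagonalSubgroup_eq (rulesF4 K) hR]
    exact inf_le_inf_right _ (glSys (rulesF4 K)).Hbar_le_Nbar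

theorem not_dvd_two_pow {r : ℕ} [Fact r.Prime] (hr2 : r ≠ 2) (e : ℕ) : ¬ r ∣ 2 ^ e := fun h =>
  hr2 ((Nat.prime_dvd_prime_iff_eq Fact.out Nat.prime_two).1 ((Fact.out : r.Prime).dvd_of_dvd_pow h))

theorem not_dvd_of_card {L : Type*} [Group L] [Finite L] {r : ℕ} [Fact r.Prime] (h : ¬ r ∣ Nat.card L) :
    ¬ r ∣ Nat.card (schurMult L) :=
  not_dvd_card_schurMult_of_subgroup r ⊥ (by rwa [Subgroup.index_bot])
    (not_dvd_card_schurMult_of_isCyclic Fact.out)

include hK in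
theorem not_dvd_schurMult_leviF4 {r : ℕ} [Fact r.Prime] (hr2 : r ≠ 2)
    (hrq : ¬ r ∣ 2 ^ (2 * m + 1) - 1) (J : Fin twF4.nOrb) :
    ¬ r ∣ Nat.card (schurMult ↥(levi (O := orbF4 hK) J)) := by
  haveI := charTwo_of_card hK
  obtain ⟨len, hR⟩ := (rulesF4 K).root
  obtain ⟨hp0, hp1, hn0, hn1, ha0, ha1, hc0, hc1, h29, hlt0, hlt1⟩ := orbit_facts
  have hr : r.Prime := Fact.out
  set W := grpF4 hK
  have hU : ¬ r ∣ Nat.card ↥((glSys (rulesF4 K)).Ubar ⊓ W.Tw) := by
    show ¬ r ∣ Nat.card ↥((glSys (rulesF4 K)).Ubar ⊓ twistedF4 K (2 ^ m))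
    rw [card_UT hK, ← pow_mul]
    exact not_dvd_two_pow hr2 _
  have hH : ¬ r ∣ Nat.card ↥((glSys (rulesF4 K)).Hbar ⊓ W.Tw) := by
    show ¬ r ∣ Nat.card ↥((glSys (rulesF4 K)).Hbar ⊓ twistedF4 K (2 ^ m))
    rw [card_HT hK]
    exact fun h => hrq (hr.dvd_of_dvd_pow h)
  have hrK : ¬ r ∣ Fintype.card K := hK ▸ not_dvd_two_pow hr2 _
  set q := 2 ^ (2 * m + 1) with hq
  have hq1 : 1 ≤ q := Nat.one_le_two_pow
  have hd0 : 0 < orderOf (Fintype.card K : ZMod r) := Arith.orderOf_natCast_pos hrK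
  have hd1 : orderOf (Fintype.card K : ZMod r) ≠ 1 := fun h => hrq (by
    have h1 := orderOf_eq_one_iff.1 h
    rw [hK] at h1
    exact (ZMod.natCast_eq_zero_iff _ _).1 (by push_cast [Nat.cast_sub hq1]; rw [h1, sub_self])
    )
  have hcomm : ∀ a r' : ℕ, r' < chevF4.nroots → a < chevF4.nroots → a ≠ r' → a ≠ chevF4.neg r' →
      chevF4.commTerms r' a = [] → ∀ t u : K,
        Commute ((glSys (rulesF4 K)).x r' t) ((glSys (rulesF4 K)).x a u) :=
    fun a r' h1 h2 h3 h4 h5 t u => x_commute _ h1 h2 h3 h4 h5 t u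
  have epos := fun J => twF4_ok.enum_posJ (T := twistF4 hK) (fun _ => rfl) rfl J
  have eneg := fun J => twF4_ok.enum_negJ (T := twistF4 hK) (fun _ => rfl) rfl hR J
  fin_cases J
  · -- the first orbit
    have hposR : ∀ s, s ∈ (orbF4 hK).posJ ⟨0, by decide⟩ → s ∈ [33, 24] := fun s hs =>
      hp0 ▸ ((epos ⟨0, by decide⟩).2 s).2 hs
    have hnegR : ∀ s, s ∈ (orbF4 hK).negJ ⟨0, by decide⟩ → s ∈ [14, 23] := fun s hs =>
      hn0 ▸ ((eneg ⟨0, by decide⟩).2 s).2 hs
    have hle : levi (O := orbF4 hK) ⟨0, by decide⟩ ≤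
        (glSys (rulesF4 K)).US {s | s ∈ [33, 24, 14, 23]} := by
      rw [levi, Subgroup.closure_le]
      rintro g (hg | hg)
      · refine (glSys (rulesF4 K)).US_mono (fun s hs => ?_) hg.1
        exact List.mem_append_left [14, 23] (hposR s hs)
      · refine (glSys (rulesF4 K)).US_mono (fun s hs => ?_) hg.1
        exact List.mem_append_right [33, 24] (hnegR s hs)
    obtain ⟨φ, hφ⟩ := exists_rep (S := glSys (rulesF4 K)) linData_famA0 hR _ hle
    obtain ⟨ρ, hρ⟩ := exists_gl_of_end φ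
    refine not_dvd_schurMult_levi W (rulesF4 K) hR _ ρ (a₀ := 34) hlt0 (fun g hg t => ?_) ha0
      (fun s hs t u => ?_) hr2 hU hH ?_ hrK ?_
    · have h := hφ g (Pi.single 1 t)
      rw [hρ g hg, Module.End.one_apply, aprod_single linData_famA0] at h
      have h' : Commute (g : GL chevF4.Idx K) ((glSys (rulesF4 K)).x 34 t) := mul_inv_eq_iff_eq_mul.1 h
      exact h'.mul_left h'
    · obtain ⟨h1, h2, h3, h4⟩ := hc0 s (hposR s hs)
      exact hcomm 34 s h1 hlt0 h2 h3 h4 t u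
    · exact lt_of_le_of_ne hr.two_le (Ne.symm hr2)
    · exact (Nat.div_le_div_left (show 2 ≤ orderOf (Fintype.card K : ZMod r) by omega) two_pos).trans
        (by norm_num)
  · -- the second orbit
    have hposR : ∀ s, s ∈ (orbF4 hK).posJ ⟨1, by decide⟩ → s ∈ [27, 25, 28, 30] := fun s hs =>
      hp1 ▸ ((epos ⟨1, by decide⟩).2 s).2 hs
    have hnegR : ∀ s, s ∈ (orbF4 hK).negJ ⟨1, by decide⟩ → s ∈ [20, 22, 19, 17] := fun s hs =>
      hn1 ▸ ((eneg ⟨1, by decide⟩).2 s).2 hs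
    by_cases hq2 : r ∣ q ^ 2 + 1
    swap
    · refine not_dvd_of_card ?_
      have hUJ := card_fixF4 hK ⟨1, by decide⟩
      rw [if_neg (show ¬ ((⟨1, by decide⟩ : Fin twF4.nOrb).val = 0) from Nat.one_ne_zero)] at hUJ
      rw [show ((fun i => i) (⟨1, by decide⟩ : Fin twF4.nOrb)) = ⟨1, by decide⟩ from rfl] at *
      rw [card_levi W (rulesF4 K) hR, hUJ]
      refine hr.not_dvd_mul hq2 (hr.not_dvd_mul ?_ fun h => hH (h.trans (Subgroup.card_dvd_of_le ?_)))
      · rw [← pow_mul]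
        exact not_dvd_two_pow hr2 _
      · exact inf_le_inf_left _ (levi_le W _)
    have hle : levi (O := orbF4 hK) ⟨1, by decide⟩ ≤
        (glSys (rulesF4 K)).US {s | s ∈ [27, 25, 28, 30, 20, 22, 19, 17]} := by
      rw [levi, Subgroup.closure_le]
      rintro g (hg | hg)
      · refine (glSys (rulesF4 K)).US_mono (fun s hs => ?_) hg.1
        exact List.mem_append_left [20, 22, 19, 17] (hposR s hs)
      · refine (glSys (rulesF4 K)).US_mono (fun s hs => ?_) hg.1
        exact List.mem_append_right [27, 25, 28, 30] (hnegR s hs)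
    obtain ⟨φ, hφ⟩ := exists_rep (S := glSys (rulesF4 K)) linData_famA1 hR _ hle
    have hfix : ∀ g, φ g (Pi.single (Fin.last 4) 1) = Pi.single (Fin.last 4) 1 := by
      intro g
      refine aprod_injective (S := glSys (rulesF4 K)) linData_famA1 hR ?_
      rw [← hφ, aprod_single linData_famA1, mul_inv_eq_iff_eq_mul]
      show (g : GL chevF4.Idx K) * (glSys (rulesF4 K)).x 29 1 = (glSys (rulesF4 K)).x 29 1 * g
      have h29' : ∀ y ∈ (glSys (rulesF4 K)).US {s | s ∈ [27, 25, 28, 30, 20, 22, 19, 17]},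
          y * (glSys (rulesF4 K)).x 29 1 = (glSys (rulesF4 K)).x 29 1 * y := by
        intro y hy
        induction hy using Subgroup.closure_induction with
        | mem y hy =>
          obtain ⟨s, hs, t, rfl⟩ := hy
          obtain ⟨h1, h2, h3, h4⟩ := h29 s hs
          have e := (glSys (rulesF4 K)).comm s h1 29 (by decide +kernel) h2 h3 t 1
          rw [List.prod_eq_one, mul_one] at e
          · exact e.symm
          · intro x hx
            simp only [ChevalleyDatum.commWord, List.map_map, List.mem_map, Function.comp_apply] at hx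
            obtain ⟨c, hc, rfl⟩ := hx
            obtain ⟨hl, hd⟩ := h4 c hc
            have hz : (c.2.1 : K) = 0 := (CharP.intCast_eq_zero_iff K 2 _).2 (by exact_mod_cast hd)
            rw [hz, zero_mul, zero_mul]
            have h := (glSys (rulesF4 K)).x_add _ hl 0 0
            rw [add_zero] at h
            exact mul_eq_left.1 h
        | one => simp
        | mul a b _ _ ha hb => rw [mul_assoc, hb, ← mul_assoc, ha, mul_assoc]
        | inv a _ ha => rw [inv_mul_eq_iff_eq_mul, ← mul_assoc, ha, mul_inv_cancel_right]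
      exact h29' g (hle g.2)
    obtain ⟨ψ, hψ⟩ := exists_minor φ hfix
    obtain ⟨ρ, hρ⟩ := exists_gl_of_end ψ
    refine not_dvd_schurMult_levi W (rulesF4 K) hR _ ρ (a₀ := 32) hlt1 (fun g hg t => ?_) ha1
      (fun s hs t u => ?_) hr2 hU hH ?_ hrK ?_
    · obtain ⟨c, hc⟩ := hψ g (hρ g hg) (Pi.single 3 t)
      have hs : (Fin.snoc (Pi.single (3 : Fin 4) t) 0 : Fin 5 → K) = Pi.single 3 t := by
        funext i
        induction i using Fin.lastCases with
        | last =>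
          rw [Fin.snoc_last, Pi.single_eq_of_ne (by decide)]
        | cast j =>
          rw [Fin.snoc_castSucc]
          fin_cases j <;> rfl
      rw [hs] at hc
      have h := hφ (g * g) (Pi.single 3 t)
      rw [map_mul, Module.End.mul_apply, hc, map_add, map_smul, hfix, hc, add_assoc, ← add_smul,
        CharTwo.add_self_eq_zero, zero_smul, add_zero, aprod_single linData_famA1] at h
      exact mul_inv_eq_iff_eq_mul.1 h
    · obtain ⟨h1, h2, h3, h4⟩ := hc1 s (hposR s hs)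
      exact hcomm 32 s h1 hlt1 h2 h3 h4 t u
    · -- `r ≥ 5`
      have h3 : r ≠ 3 := by
        rintro rfl
        have h1 : q % 3 = 2 := by
          rw [hq, pow_succ, pow_mul, Nat.mul_mod, Nat.pow_mod]; norm_num
        rw [Nat.dvd_iff_mod_eq_zero, Nat.add_mod, Nat.pow_mod, h1] at hq2
        norm_num at hq2
      have h4 : r ≠ 4 := fun h => absurd (h ▸ hr) (by norm_num)
      have := hr.two_le
      omega
    · have h4 : (Fintype.card K : ZMod r) ^ 4 = 1 := by
        have h2 : ((q ^ 2 + 1 : ℕ) : ZMod r) = 0 := (ZMod.natCast_eq_zero_iff _ _).2 hq2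
        rw [hK]
        push_cast at h2 ⊢
        linear_combination ((q : ZMod r) ^ 2 - 1) * h2
      have hdvd := orderOf_dvd_of_pow_eq_one h4
      have hne2 : orderOf (Fintype.card K : ZMod r) ≠ 2 := fun h => by
        have h2 : ((q ^ 2 + 1 : ℕ) : ZMod r) = 0 := (ZMod.natCast_eq_zero_iff _ _).2 hq2
        have h1 := pow_orderOf_eq_one (Fintype.card K : ZMod r)
        rw [h, hK] at h1
        push_cast at h2
        have h3 : ((2 : ℕ) : ZMod r) = 0 := by push_cast; linear_combination h2 - h1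
        exact hr2 ((Nat.prime_dvd_prime_iff_eq hr Nat.prime_two).1 ((ZMod.natCast_eq_zero_iff _ _).1 h3))
      have h5 := Nat.le_of_dvd (by norm_num) hdvd
      interval_cases hd : orderOf (Fintype.card K : ZMod r) <;> norm_num at *

include hK in
/-- The case of a prime dividing neither the order of `U` nor that of `N`. -/
theorem not_dvd_cells {r : ℕ} [Fact r.Prime] (hr2 : r ≠ 2) (hrq : ¬ r ∣ 2 ^ (2 * m + 1) - 1) :
    ¬ r ∣ Nat.card (schurMult ↥(twistedF4 K (2 ^ m))) := by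
  obtain ⟨len, hR⟩ := (rulesF4 K).root
  haveI : Finite ↥((grpF4 hK).Tw) := inferInstance
  refine not_dvd_card_schurMult (grpF4 hK) (rulesF4 K) hR
    (twF4_ok.isLongest (T := twistF4 hK) (fun _ => rfl) rfl) ?_ ?_
    (not_dvd_schurMult_leviF4 hK hr2 hrq)
  · show ¬ r ∣ Nat.card ↥((glSys (rulesF4 K)).Ubar ⊓ twistedF4 K (2 ^ m))
    rw [card_UT hK, ← pow_mul]
    exact not_dvd_two_pow hr2 _
  · show ¬ r ∣ Nat.card ↥((glSys (rulesF4 K)).Nbar ⊓ twistedF4 K (2 ^ m))
    rw [card_NT hK]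
    refine (Fact.out : r.Prime).not_dvd_mul ?_ fun h => hrq ((Fact.out : r.Prime).dvd_of_dvd_pow h)
    exact not_dvd_two_pow hr2 4

end Cfsg.Agent.CentralExt.TwCells
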