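import Cfsg.Agent.CentralExt.TwCells.F4Odd

/-!
# The multiplier of ²F₄(q) at the primes dividing `q - 1` (owner: helper85)

A Sylow subgroup lies in the torus; the pairing on the torus is reversed by a reflection.
-/

set_option autoImplicit false
set_option linter.style.haveILetI false

namespace Cfsg.Agent.CentralExt.TwCells

open Cfsg.Lie Cfsg.Agent.ChevGrp Cfsg.Agent.ChevTw
open scoped commutatorElement

universe u v

/-- Elements over one cyclic group commute. -/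
theorem commute_of_zpowers {E : Type u} {H : Type v} [Group E] [Group H] {f : E →* H}
    (hc : f.ker ≤ Subgroup.center E) {g x y : E} (hx : f x ∈ Subgroup.zpowers (f g))
    (hy : f y ∈ Subgroup.zpowers (f g)) : Commute x y := by
  have key : ∀ {x : E}, f x ∈ Subgroup.zpowers (f g) → ∃ k : ℤ, ∃ z ∈ Subgroup.center E, x = g ^ k * z :=
    fun {x} hx => by
      obtain ⟨k, hk⟩ := Subgroup.mem_zpowers_iff.1 hx
      exact ⟨k, (g ^ k)⁻¹ * x, hc (by rw [MonoidHom.mem_ker, map_mul, map_inv, map_zpow, hk, inv_mul_cancel]),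
        by group⟩
  obtain ⟨i, z, hz, rfl⟩ := key hx
  obtain ⟨j, w, hw, rfl⟩ := key hy
  have hzc : ∀ a, Commute z a := fun a => (Subgroup.mem_center_iff.1 hz a).symm
  have hwc : ∀ a, Commute w a := fun a => (Subgroup.mem_center_iff.1 hw a).symm
  exact ((((Commute.refl g).zpow_left i).zpow_right j).mul_left (hzc _)).mul_right (hwc _).symm

theorem wMat_orbit_zero : ∀ p : Fin 4 × Fin 4,
    LieTori.wMat (cartanMat chevF4) (twF4.wJ chevF4 ⟨0, by decide⟩).reverse p.1 p.2 =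
      ((([[-1, 0, 0, 0], [1, 1, 0, 0], [0, 0, 1, 1], [0, 0, 0, -1]] : List (List ℤ)).getD p.1.val []).getD
        p.2.val 0) := by
  decide +kernel

variable {K : Type*} [Field K] [Fintype K] {m : ℕ} (hK : Fintype.card K = 2 ^ (2 * m + 1))

/-- The parameters of the fixed torus. -/
def parF4 (m : ℕ) : Kˣ × Kˣ →* (Fin chevF4.rank → Kˣ) where
  toFun x := mkF4 (x.1 ^ 2 ^ m) (x.2 ^ 2 ^ m) x.2 x.1
  map_one' := by
    funext j
    fin_cases j <;> simp [mkF4]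
  map_mul' a b := by
    funext j
    fin_cases j <;> simp [mkF4, mul_pow]

include hK in
theorem parF4_fixed (x : Kˣ × Kˣ) : torusMap2 K (twF4.node chevF4) (kF4 m) (parF4 m x) = parF4 m x :=
  (mem_fixF4_iff _).2 ⟨rfl, rfl, by
    show (x.2 ^ 2 ^ m) ^ (2 * 2 ^ m) = x.2
    rw [← pow_mul, mul_comm, units_pow_twice hK], by
    show (x.1 ^ 2 ^ m) ^ (2 * 2 ^ m) = x.1
    rw [← pow_mul, mul_comm, units_pow_twice hK]⟩

include hK in
/-- The torus part consists of the images of the parameters. -/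
theorem mem_HT {len : ℕ → ℕ} (hR : RootTable chevF4 len) {h : GL chevF4.Idx K} :
    h ∈ (glSys (rulesF4 K)).Hbar ⊓ twistedF4 K (2 ^ m) ↔
      ∃ x, (glSys (rulesF4 K)).tau (rulesF4 K) hR (glSys_HMul (rulesF4 K) hR) (parF4 m x) = h := by
  haveI := charTwo_of_card hK
  set S := glSys (rulesF4 K)
  set τ := S.tau (rulesF4 K) hR (glSys_HMul (rulesF4 K) hR)
  have hinj : Function.Injective τ := by
    rw [injective_iff_map_eq_one]
    intro c hc
    have := (S.θ_tau_eq_one_iff (rulesF4 K) hR (glSys_HMul (rulesF4 K) hR) c).1 (by rw [hc, map_one])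
    rwa [rootKer_F4, Subgroup.mem_bot] at this
  constructor
  · intro hh
    obtain ⟨hH, hT⟩ := Subgroup.mem_inf.1 hh
    rw [← S.tau_range (rulesF4 K) hR (glSys_HMul (rulesF4 K) hR)] at hH
    obtain ⟨c, rfl⟩ := hH
    have e := (grpF4 hK).fixed hT
    rw [sig_tau2 (twistF4 hK) (rulesF4 K) hR _ charF4.2.2.2.2.2.2.2.2.2.2.2.2.2.2.2.2 (kF4 m)
      (fun _ => by simp [CharTwo.neg_eq]) (fun i t => rfl)] at e
    obtain ⟨h0, h1, -, -⟩ := (mem_fixF4_iff c).1 (hinj e)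
    exact ⟨(c ⟨3, by decide⟩, c ⟨2, by decide⟩),
      congrArg τ (funext (forallF4.2 ⟨h0, h1, rfl, rfl⟩))⟩
  · rintro ⟨x, rfl⟩
    refine Subgroup.mem_inf.2 ⟨?_, tau_mem_F4 hK hR (parF4_fixed hK x)⟩
    rw [← S.tau_range (rulesF4 K) hR (glSys_HMul (rulesF4 K) hR)]
    exact ⟨_, rfl⟩

include hK in
theorem conj_parF4 {len : ℕ → ℕ} (hR : RootTable chevF4 len) {n : GL chevF4.Idx K}
    (hn : n ∈ (glSys (rulesF4 K)).Nbar)
    (hc : (glSys (rulesF4 K)).ConjP n (twF4.wJ chevF4 ⟨0, by decide⟩)) (x : Kˣ × Kˣ) :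
    n * (glSys (rulesF4 K)).tau (rulesF4 K) hR (glSys_HMul (rulesF4 K) hR) (parF4 m x) * n⁻¹ =
      (glSys (rulesF4 K)).tau (rulesF4 K) hR (glSys_HMul (rulesF4 K) hR) (parF4 m (x.1⁻¹ * x.2, x.2)) := by
  set S := glSys (rulesF4 K)
  set w := twF4.wJ chevF4 ⟨0, by decide⟩ with hw
  set τ := S.tau (rulesF4 K) hR (glSys_HMul (rulesF4 K) hR)
  have hτH : ∀ c, τ c ∈ S.Hbar := fun c => by
    rw [← S.tau_range (rulesF4 K) hR (glSys_HMul (rulesF4 K) hR)]
    exact ⟨c, rfl⟩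
  set h := n * (S.nW w)⁻¹ with hh
  have hH : h ∈ S.Hbar := by
    refine TwGroup.mem_Hbar_of_conjP (rulesF4 K) hR (mul_mem hn (inv_mem (S.nW_mem_Nbar w)))
      (hc.mul hR ((S.conjP_nW (rulesF4 K) hR w).inv hR)) fun r hr => ?_
    rw [act_append, hR.act_act_reverse w hr]
  have e := LieTori.nW_conj_tau S (rulesF4 K) hR (glSys_HMul (rulesF4 K) hR) w (parF4 m x)
  have e2 : S.nW w * τ (parF4 m x) * (S.nW w)⁻¹ = τ (parF4 m (x.1⁻¹ * x.2, x.2)) := by
    rw [e]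
    congr 1
    funext k
    show (∏ j : Fin 4, parF4 m x j ^ LieTori.wMat (cartanMat chevF4) w.reverse j k) = _
    rw [Fin.prod_univ_four]
    simp only [hw, show ∀ (j : Fin 4) (k : Fin chevF4.rank),
      LieTori.wMat (cartanMat chevF4) (twF4.wJ chevF4 ⟨0, by decide⟩).reverse j k =
        ((([[-1, 0, 0, 0], [1, 1, 0, 0], [0, 0, 1, 1], [0, 0, 0, -1]] : List (List ℤ)).getD j.val []).getD k.val 0)
      from fun j k => wMat_orbit_zero (j, k)]
    fin_cases k <;>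
      simp [parF4, mkF4, mul_pow, inv_pow, mul_comm]
  rw [show n = h * S.nW w by rw [hh]; group,
    show h * S.nW w * τ (parF4 m x) * (h * S.nW w)⁻¹ = h * (S.nW w * τ (parF4 m x) * (S.nW w)⁻¹) * h⁻¹ by
      group, e2, S.Hbar_comm (rulesF4 K) hR (glSys_HMul (rulesF4 K) hR) h hH _ (hτH _), mul_inv_cancel_right]

include hK in
theorem not_dvd_torus {r : ℕ} [Fact r.Prime] (hr2 : r ≠ 2) (hrq : r ∣ 2 ^ (2 * m + 1) - 1) :
    ¬ r ∣ Nat.card (schurMult ↥(twistedF4 K (2 ^ m))) := by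
  obtain ⟨len, hR⟩ := (rulesF4 K).root
  refine not_dvd_card_schurMult_of_forall r fun Δ _ _ τ hτ hk => ?_
  set f : Δ →* GL chevF4.Idx K := (twistedF4 K (2 ^ m)).subtype.comp τ with hfdef
  have hfk : f.ker = τ.ker := by
    ext x
    simp [hfdef, MonoidHom.mem_ker]
  have hfc : f.ker ≤ Subgroup.center Δ := hfk ▸ hτ.2.1
  have hfp : IsPGroup r f.ker := by rw [hfk]; exact hk
  set S := glSys (rulesF4 K)
  set t := S.tau (rulesF4 K) hR (glSys_HMul (rulesF4 K) hR)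
  have lift : ∀ {g}, g ∈ twistedF4 K (2 ^ m) → ∃ e, f e = g := fun {g} hg => by
    obtain ⟨e, he⟩ := hτ.1 ⟨g, hg⟩
    exact ⟨e, by simp [hfdef, he]⟩
  choose s hs using fun x => lift (Subgroup.mem_inf.1 ((mem_HT hK hR).2 ⟨x, rfl⟩)).2
  replace hs : ∀ x, f (s x) = t (parF4 m x) := hs
  have hcen : ∀ {z : Δ}, f z = 1 → ∀ g, Commute g z := fun {z} hz g => Subgroup.mem_center_iff.1 (hfc hz) g
  have hsmul : ∀ x y, f (s x * s y) = t (parF4 m (x * y)) := fun x y => by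
    rw [map_mul, hs, hs, map_mul, map_mul]
  obtain ⟨g, hg⟩ := IsCyclic.exists_generator (α := Kˣ)
  have hz : ∀ (x : Kˣ × Kˣ) (u : Kˣ), (∃ k : ℤ, x ^ k = (u, 1)) → f (s (u, 1)) ∈ Subgroup.zpowers (f (s x)) :=
    fun x u ⟨k, hk⟩ => ⟨k, by simp only [hs, ← map_zpow, hk]⟩
  have h1 : ∀ a b : Kˣ, Commute (s (a, 1)) (s (b, 1)) := fun a b => by
    obtain ⟨i, hi⟩ := Subgroup.mem_zpowers_iff.1 (hg a)
    obtain ⟨j, hj⟩ := Subgroup.mem_zpowers_iff.1 (hg b)
    exact commute_of_zpowers hfc (hz (g, 1) a ⟨i, by simp [hi]⟩) (hz (g, 1) b ⟨j, by simp [hj]⟩)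
  have h2 : ∀ a b : Kˣ, Commute (s (1, a)) (s (1, b)) := fun a b => by
    have hz' : ∀ u : Kˣ, f (s (1, u)) ∈ Subgroup.zpowers (f (s (1, g))) := fun u => by
      obtain ⟨k, hk⟩ := Subgroup.mem_zpowers_iff.1 (hg u)
      exact ⟨k, by simp only [hs, ← map_zpow]; simp [hk]⟩
    exact commute_of_zpowers hfc (hz' a) (hz' b)
  obtain ⟨n, hnN, hnc, hnT⟩ :=
    TwGroup.exists_n (rulesF4 K) hR (grpF4 hK) (⟨0, by decide⟩ : Fin twF4.nOrb)
  obtain ⟨ν, hν⟩ := lift hnT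
  have hrel : ∀ {x y : Δ}, f x = f y → ∀ w, Commute w x → Commute w y := fun {x y} h w hw => by
    rw [show y = x * (x⁻¹ * y) by group]
    exact hw.mul_right (hcen (by rw [map_mul, map_inv, h, inv_mul_cancel]) w)
  -- the two factors commute
  have h12 : ∀ a b : Kˣ, Commute (s (a, 1)) (s (1, b)) := by
    intro a b
    set x := s (a, 1) with hx
    set y := s (1, b) with hy
    have hc0 : f ⁅x, y⁆ = 1 := by
      rw [map_commutatorElement, hs, hs, ← map_commutatorElement, commutatorElement_eq_one_iff_mul_comm.2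
        (mul_comm _ _), map_one]
    have hx' : f (ν * x * ν⁻¹) = f x⁻¹ := by
      rw [map_mul f, map_mul f, map_inv f, hν, map_inv f x, hs, conj_parF4 hK hR hnN hnc]
      rw [← map_inv, ← map_inv]
      simp
      rfl
    have hy' : f (ν * y * ν⁻¹) = f (s (b, 1) * y) := by
      rw [map_mul f, map_mul f, map_inv f, hν, hsmul, hs, conj_parF4 hK hR hnN hnc]
      simp
      rfl
    have hcomm : ⁅ν * x * ν⁻¹, ν * y * ν⁻¹⁆ = ⁅x, y⁆ := by
      rw [← conjugate_commutatorElement, (hcen hc0 ν).eq, mul_inv_cancel_right]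
    obtain ⟨z, hz0, ez⟩ : ∃ z, f z = 1 ∧ ν * x * ν⁻¹ = x⁻¹ * z :=
      ⟨x * (ν * x * ν⁻¹), by rw [map_mul f, hx', ← map_mul, mul_inv_cancel, map_one], by group⟩
    obtain ⟨w, hw0, ew⟩ : ∃ w, f w = 1 ∧ ν * y * ν⁻¹ = s (b, 1) * y * w :=
      ⟨(s (b, 1) * y)⁻¹ * (ν * y * ν⁻¹), by rw [map_mul, map_inv, hy', inv_mul_cancel], by group⟩
    have hzc := hcen hz0
    have hwc := hcen hw0
    have hinv : ⁅x, y⁆ = ⁅x⁻¹, y⁆ := by
      have hxa : Commute x⁻¹ (s (b, 1)) := (h1 a b).inv_left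
      conv_lhs => rw [← hcomm, ez, ew]
      simp only [commutatorElement_def, mul_inv_rev]
      have e1 : ∀ q, z * q = q * z := fun q => (hzc q).eq.symm
      have e2 : ∀ q, w * q = q * w := fun q => (hwc q).eq.symm
      calc x⁻¹ * z * (s (b, 1) * y * w) * (z⁻¹ * x⁻¹⁻¹) * (w⁻¹ * (y⁻¹ * (s (b, 1))⁻¹))
          = x⁻¹ * (z * (s (b, 1) * y * w)) * z⁻¹ * x⁻¹⁻¹ * w⁻¹ * y⁻¹ * (s (b, 1))⁻¹ := by group
        _ = x⁻¹ * s (b, 1) * y * (w * x⁻¹⁻¹) * w⁻¹ * y⁻¹ * (s (b, 1))⁻¹ := by rw [e1]; group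
        _ = (x⁻¹ * s (b, 1)) * y * x⁻¹⁻¹ * y⁻¹ * (s (b, 1))⁻¹ := by rw [e2]; group
        _ = s (b, 1) * (x⁻¹ * y * x⁻¹⁻¹ * y⁻¹) * (s (b, 1))⁻¹ := by rw [hxa.eq]; group
        _ = x⁻¹ * y * x⁻¹⁻¹ * y⁻¹ := by
          rw [(hcen (z := x⁻¹ * y * x⁻¹⁻¹ * y⁻¹) (by
            rw [← commutatorElement_def, map_commutatorElement, map_inv, commutatorElement_eq_one_iff_mul_comm]
            have h := hc0
            rw [map_commutatorElement, commutatorElement_eq_one_iff_mul_comm] at h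
            exact (Commute.inv_left h).eq) (s (b, 1))).eq, mul_inv_cancel_right]
    have hneg : ⁅x⁻¹, y⁆ = ⁅x, y⁆⁻¹ := by
      have e : ⁅x⁻¹, y⁆ = x⁻¹ * ⁅x, y⁆⁻¹ * x := by simp only [commutatorElement_def]; group
      rw [e, (hcen (z := ⁅x, y⁆⁻¹) (by rw [map_inv, hc0, inv_one]) x⁻¹).eq, inv_mul_cancel_right]
    have hsq : ⁅x, y⁆ ^ 2 = 1 := by
      rw [pow_two]
      nth_rewrite 2 [hinv]
      rw [hneg]
      exact mul_inv_cancel _
    refine commutatorElement_eq_one_iff_mul_comm.1 (eq_one_of_pow hfp hc0 hsq fun h => hr2 ?_)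
    exact (Nat.prime_dvd_prime_iff_eq Fact.out Nat.prime_two).1 h
  -- the preimage of the torus is abelian
  have hall : ∀ x y : Δ, f x ∈ S.Hbar → f y ∈ S.Hbar → Commute x y := by
    intro x y hx hy
    have hT : ∀ e : Δ, f e ∈ twistedF4 K (2 ^ m) := fun e => (τ e).2
    obtain ⟨⟨a, b⟩, hab⟩ := (mem_HT hK hR).1 (Subgroup.mem_inf.2 ⟨hx, hT x⟩)
    obtain ⟨⟨c, d⟩, hcd⟩ := (mem_HT hK hR).1 (Subgroup.mem_inf.2 ⟨hy, hT y⟩)
    have e : Commute (s (a, 1) * s (1, b)) (s (c, 1) * s (1, d)) :=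
      ((h1 a c).mul_right (h12 a d)).mul_left (((h12 c b).symm).mul_right (h2 b d))
    have ea : f (s (a, 1) * s (1, b)) = f x := by rw [hsmul]; simpa using hab
    have ec : f (s (c, 1) * s (1, d)) = f y := by rw [hsmul]; simpa using hcd
    exact (hrel ea _ (hrel ec _ e).symm).symm
  rw [eq_bot_iff]
  intro z hz
  set T : Subgroup Δ := S.Hbar.comap f with hTdef
  have hidx : ¬ r ∣ T.index := by
    have h1 : T.index = (((S.Hbar ⊓ twistedF4 K (2 ^ m))).subgroupOf (twistedF4 K (2 ^ m))).index := by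
      rw [hTdef, hfdef, ← Subgroup.comap_comap, Subgroup.index_comap_of_surjective _ hτ.1]
      congr 1
      ext g
      simp [Subgroup.mem_subgroupOf]
    have h2 := ((S.Hbar ⊓ twistedF4 K (2 ^ m)).subgroupOf (twistedF4 K (2 ^ m))).card_mul_index
    rw [Nat.card_congr (Subgroup.subgroupOfEquivOfLe inf_le_right).toEquiv, card_HT hK,
      Cfsg.Agent.ChevTwOrd.order_F4 hK] at h2
    rw [h1]
    generalize ((S.Hbar ⊓ twistedF4 K (2 ^ m)).subgroupOf (twistedF4 K (2 ^ m))).index = i at h2 ⊢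
    generalize hqdef : 2 ^ (2 * m + 1) = q at h2 hrq
    have hq2 : 2 ≤ q := hqdef ▸ Nat.le_self_pow (by omega) 2
    obtain ⟨a, rfl⟩ : ∃ a, q = a + 1 := ⟨q - 1, by omega⟩
    have h4 : (a + 1) ^ 4 - 1 = a * ((a + 1 + 1) * ((a + 1) ^ 2 + 1)) := Nat.sub_eq_of_eq_add (by ring)
    rw [Nat.add_sub_cancel] at h2 hrq
    rw [h4] at h2
    have hi : i = (a + 1) ^ 12 * ((a + 1) ^ 3 + 1) * ((a + 1 + 1) * ((a + 1) ^ 2 + 1)) * ((a + 1) ^ 6 + 1) := by
      apply Nat.eq_of_mul_eq_mul_left (pow_pos (show 0 < a by omega) 2)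
      rw [h2]
      ring
    intro hd
    have h16 : ((16 : ℕ) : ZMod r) = 0 := by
      have hz := (ZMod.natCast_eq_zero_iff _ _).2 hd
      have ha : (a : ZMod r) = 0 := (ZMod.natCast_eq_zero_iff _ _).2 hrq
      rw [hi] at hz
      push_cast at hz ⊢
      rw [ha] at hz
      ring_nf at hz
      exact hz
    exact not_dvd_two_pow hr2 4 ((ZMod.natCast_eq_zero_iff _ _).1 h16)
  have : T.FiniteIndex := inferInstance
  obtain ⟨k, hk'⟩ := hk ⟨z, hz⟩
  have hzf : f z = 1 := by rw [← MonoidHom.mem_ker, hfk]; exact hz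
  have hzT : z ∈ T := by rw [hTdef, Subgroup.mem_comap, hzf]; exact one_mem _
  have h := mem_commutator_of_coprime T (hτ.2.1 hz) (hτ.2.2 hz) hzT (n := r ^ k) (congrArg Subtype.val hk')
    (Nat.Coprime.pow_right k ((Fact.out : r.Prime).coprime_iff_not_dvd.2 hidx).symm)
  obtain ⟨w, hw, rfl⟩ := h
  have hw' : (commutator ↥T) = ⊥ := by
    rw [eq_bot_iff, _root_.commutator_def, Subgroup.commutator_le]
    intro x _ y _
    rw [Subgroup.mem_bot, commutatorElement_eq_one_iff_mul_comm]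
    exact Subtype.ext (hall x.1 y.1 x.2 y.2).eq
  rw [hw', SetLike.mem_coe, Subgroup.mem_bot] at hw
  rw [hw]
  exact one_mem _

end Cfsg.Agent.CentralExt.TwCells
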