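import Cfsg.Agent.CentralExt.TwCells.Cells
import Cfsg.Agent.CentralExt.Bounds
import Cfsg.Agent.ChevTw.TwA1
import Cfsg.Agent.SylowLarge.Linear
import Mathlib.LinearAlgebra.Matrix.GeneralLinearGroup.Defs

/-!
# The groups of the orbits: cells, and a linear action on an abelian root group (owner: helper85)
-/

set_option autoImplicit false
set_option linter.style.haveILetI false

namespace Cfsg.Agent.CentralExt.TwCells

open Cfsg.Lie Cfsg.Agent.ChevGrp Cfsg.Agent.ChevTw

variable {D : ChevalleyDatum} {F : Type*} [Field F] {G : Type*} [Group G] {len : ℕ → ℕ}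
  {S : Sys D F G} {T : Twist S} {ι : Type*} {O : Orbits T ι} (W : TwGroup O)

theorem fixPos_mul (J : ι) {u v : G} (hu : u ∈ fixUS T (O.posJ J)) (hv : v ∈ fixUS T (O.posJ J)) :
    u * v ∈ fixUS T (O.posJ J) :=
  ⟨mul_mem hu.1 hv.1, by
    rw [T.sig_mul _ (Twist.US_le_Gbar O.posJ_lt hu.1) _ (Twist.US_le_Gbar O.posJ_lt hv.1), hu.2, hv.2]⟩

theorem fixPos_inv (J : ι) {u : G} (hu : u ∈ fixUS T (O.posJ J)) : u⁻¹ ∈ fixUS T (O.posJ J) :=
  ⟨inv_mem hu.1, by rw [T.sig_inv (Twist.US_le_Gbar O.posJ_lt hu.1), hu.2]⟩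

theorem fixPos_one (J : ι) : (1 : G) ∈ fixUS T (O.posJ J) := ⟨one_mem _, T.sig_one⟩

theorem fixPos_conj_H (hS : Rules D F) (hR : RootTable D len) (J : ι) {h u : G} (hh : h ∈ S.Hbar)
    (hhT : h ∈ W.Tw) (hu : u ∈ fixUS T (O.posJ J)) : h * u * h⁻¹ ∈ fixUS T (O.posJ J) :=
  W.conj_neg_fix hhT (S.conjP_Hbar hS hR hh) O.posJ_lt (fun r hr => by simpa [act_nil] using hr) hu

include W in
/-- The two cells of the group of an orbit. -/
theorem exists_levi_cells [Finite G] (hS : Rules D F) (hR : RootTable D len) (J : ι) :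
    ∃ s ∈ levi (O := O) J, S.ConjP s (O.wJ J) ∧ s ∈ S.Nbar ∧ ∀ g ∈ levi (O := O) J,
      (∃ u ∈ fixUS T (O.posJ J), ∃ h ∈ S.Hbar ⊓ levi (O := O) J, g = u * h) ∨
      ∃ u ∈ fixUS T (O.posJ J), ∃ v ∈ fixUS T (O.posJ J), ∃ h ∈ S.Hbar ⊓ levi (O := O) J,
        g = u * s * v * h := by
  obtain ⟨v₀, hv₀, hv₀1⟩ := W.exNeg J
  obtain ⟨c₀, hc₀, u₀, hu₀, s, hsN, hsc, hsT, e₀⟩ := W.neg_decomp hS hR J hv₀ hv₀1
  set L := levi (O := O) J with hL
  have hpos : ∀ {u}, u ∈ fixUS T (O.posJ J) → u ∈ L := fun hu => Subgroup.subset_closure (Or.inl hu)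
  have hneg : ∀ {u}, u ∈ fixUS T (O.negJ J) → u ∈ L := fun hu => Subgroup.subset_closure (Or.inr hu)
  have hsL : s ∈ L := by
    rw [show s = c₀⁻¹ * v₀ * u₀⁻¹ by rw [e₀]; group]
    exact mul_mem (mul_mem (inv_mem (hpos hc₀)) (hneg hv₀)) (inv_mem (hpos hu₀))
  have hss : s * s ∈ S.Hbar :=
    TwGroup.mem_Hbar_of_conjP hS hR (mul_mem hsN hsN) (hsc.mul hR hsc) fun r hr => by
      rw [act_append, O.winv J r hr]
  refine ⟨s, hsL, hsc, hsN, fun g hg => ?_⟩
  let C : Set G := {g |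
    (∃ u ∈ fixUS T (O.posJ J), ∃ h ∈ S.Hbar ⊓ L, g = u * h) ∨
      ∃ u ∈ fixUS T (O.posJ J), ∃ v ∈ fixUS T (O.posJ J), ∃ h ∈ S.Hbar ⊓ L, g = u * s * v * h}
  have hu : ∀ c ∈ fixUS T (O.posJ J), ∀ e ∈ C, c * e ∈ C := by
    rintro c hc _ (⟨u, hu, h, hh, rfl⟩ | ⟨u, hu, v, hv, h, hh, rfl⟩)
    · exact Or.inl ⟨c * u, fixPos_mul J hc hu, h, hh, by group⟩
    · exact Or.inr ⟨c * u, fixPos_mul J hc hu, v, hv, h, hh, by group⟩
  have hLT : L ≤ W.Tw := levi_le W J
  have hs : ∀ e ∈ C, s * e ∈ C := by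
    rintro _ (⟨u, hu, h, hh, rfl⟩ | ⟨u, hu, v, hv, h, hh, rfl⟩)
    · exact Or.inr ⟨1, fixPos_one J, u, hu, h, hh, by group⟩
    obtain ⟨hhH, hhL⟩ := Subgroup.mem_inf.1 hh
    by_cases hu1 : u = 1
    · refine Or.inl ⟨(s * s) * v * (s * s)⁻¹, fixPos_conj_H W hS hR J hss (mul_mem hsT hsT) hv,
        s * s * h, Subgroup.mem_inf.2 ⟨mul_mem hss hhH, mul_mem (mul_mem hsL hsL) hhL⟩, ?_⟩
      rw [hu1]; group
    have hneg' : s * u * s⁻¹ ∈ fixUS T (O.negJ J) :=
      W.conj_neg_fix hsT hsc O.posJ_lt (fun r hr => O.act_wJ_mem hR J hr) hu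
    obtain ⟨c1, hc1, u1, hu1', nv, hnvN, hnvc, hnvT, e⟩ :=
      W.neg_decomp hS hR J hneg' (by simpa using hu1)
    set h0 := s⁻¹ * nv with hh0
    have hh0H : h0 ∈ S.Hbar :=
      TwGroup.mem_Hbar_of_conjP hS hR (mul_mem (inv_mem hsN) hnvN) ((hsc.inv hR).mul hR hnvc) fun r hr => by
        rw [act_append, hR.act_reverse_act _ hr]
    have hh0L : h0 ∈ L := by
      refine mul_mem (inv_mem hsL) ?_
      rw [show nv = c1⁻¹ * (s * u * s⁻¹) * u1⁻¹ by rw [e]; group]
      exact mul_mem (mul_mem (inv_mem (hpos hc1)) (hneg hneg')) (inv_mem (hpos hu1'))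
    have h0ss : h0 * (s * s) ∈ S.Hbar := mul_mem hh0H hss
    refine Or.inr ⟨c1, hc1, (h0 * u1 * h0⁻¹) * (h0 * (s * s) * v * (h0 * (s * s))⁻¹),
      fixPos_mul J (fixPos_conj_H W hS hR J hh0H (hLT hh0L) hu1')
        (fixPos_conj_H W hS hR J h0ss (mul_mem (hLT hh0L) (mul_mem hsT hsT)) hv),
      h0 * (s * s) * h, Subgroup.mem_inf.2 ⟨mul_mem h0ss hhH,
        mul_mem (mul_mem hh0L (mul_mem hsL hsL)) hhL⟩, ?_⟩
    calc s * (u * s * v * h) = (s * u * s⁻¹) * (s * s) * v * h := by group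
      _ = c1 * nv * u1 * (s * s) * v * h := by rw [e]
      _ = _ := by rw [hh0]; group
  have hgen : L ≤ Subgroup.closure (fixUS T (O.posJ J) ∪ {s}) := by
    rw [hL, levi, Subgroup.closure_le]
    rintro x (hx | hx)
    · exact Subgroup.subset_closure (Or.inl hx)
    · have h1 := W.conj_neg_fix (inv_mem hsT) (hsc.inv hR) (B := O.posJ J) O.negJ_lt
        (fun r hr => by rw [act_wJ_reverse hR J hr.1.1]; exact O.act_wJ_mem' hR J hr) hx
      rw [inv_inv] at h1
      rw [show x = s * (s⁻¹ * x * s) * s⁻¹ by group]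
      exact mul_mem (mul_mem (Subgroup.subset_closure (Or.inr rfl)) (Subgroup.subset_closure (Or.inl h1)))
        (inv_mem (Subgroup.subset_closure (Or.inr rfl)))
  have hgen' : ∀ x ∈ fixUS T (O.posJ J) ∪ {s}, ∀ e ∈ C, x * e ∈ C := by
    rintro x (hx | hx)
    · exact hu x hx
    · rw [Set.mem_singleton_iff] at hx
      exact hx ▸ hs
  have hC : ∀ x ∈ Subgroup.closure (fixUS T (O.posJ J) ∪ {s}), x ∈ C := by
    intro x hx
    induction hx using Subgroup.closure_induction_left with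
    | one => exact Or.inl ⟨1, fixPos_one J, 1, one_mem _, by group⟩
    | mul_left x hx y _ ihy => exact hgen' x hx y ihy
    | inv_mul_cancel x hx y _ ihy => exact inv_mul_mem_of_finite (hgen' x hx) y ihy
  exact hC g (hgen hg)

include W in
/-- The order of the group of an orbit. -/
theorem card_levi [Finite G] (hS : Rules D F) (hR : RootTable D len) (J : ι) :
    Nat.card ↥(levi (O := O) J) = (Nat.card ↥(fixUS T (O.posJ J)) + 1) *
      (Nat.card ↥(fixUS T (O.posJ J)) * Nat.card ↥(S.Hbar ⊓ levi (O := O) J)) := by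
  obtain ⟨s, hsL, hsc, hsN, hcells⟩ := exists_levi_cells W hS hR J
  have hsT : s ∈ W.Tw := levi_le W J hsL
  set U := fixUS T (O.posJ J) with hU
  set L := levi (O := O) J with hL
  have hUb : ∀ {u}, u ∈ U → u ∈ S.Ubar := fun hu => S.US_mono (fun r hr => hr.1) hu.1
  let φ : Option ↥U × ↥U × ↥(S.Hbar ⊓ L) → ↥L := fun x =>
    match x.1 with
    | none => ⟨x.2.1.1 * x.2.2.1, mul_mem (Subgroup.subset_closure (Or.inl x.2.1.2)) (Subgroup.mem_inf.1 x.2.2.2).2⟩
    | some u => ⟨u.1 * s * x.2.1.1 * x.2.2.1, mul_mem (mul_mem (mul_mem (Subgroup.subset_closure (Or.inl u.2)) hsL)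
        (Subgroup.subset_closure (Or.inl x.2.1.2))) (Subgroup.mem_inf.1 x.2.2.2).2⟩
  have hsB : s ∉ S.Bbar := fun h => by
    obtain ⟨i, hi⟩ := O.nonempty J
    have hH : s ∈ S.Hbar := by rw [← S.Bbar_inf_Nbar hS hR]; exact Subgroup.mem_inf.2 ⟨h, hsN⟩
    have h1 := Sys.ConjP.act_unique S hR hsc (S.conjP_Hbar hS hR hH) _ (hR.simple_lt i i.2)
    have h2 := O.wneg J i hi
    rw [h1] at h2
    exact hR.not_pos_and_neg (hR.simple_pos i) h2
  have huniq : ∀ {u u' h h' : G}, u ∈ S.Ubar → u' ∈ S.Ubar → h ∈ S.Hbar → h' ∈ S.Hbar →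
      u * h = u' * h' → u = u' ∧ h = h' := fun hu hu' hh hh' e => S.Bbar_decomp_unique hS hR hu hu' hh hh' e
  have hinj : Function.Injective φ := by
    rintro ⟨o, v, h⟩ ⟨o', v', h'⟩ e
    have e' := congrArg Subtype.val e
    have hhH := (Subgroup.mem_inf.1 h.2).1
    have hhH' := (Subgroup.mem_inf.1 h'.2).1
    have hB : ∀ {x y : G}, x ∈ U → y ∈ S.Hbar → x * y ∈ S.Bbar := fun hx hy =>
      mul_mem (S.Ubar_le_Bbar (hUb hx)) (S.Hbar_le_Bbar hy)
    rcases o with _ | u <;> rcases o' with _ | u' <;> simp only [φ] at e'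
    · obtain ⟨e1, e2⟩ := huniq (hUb v.2) (hUb v'.2) hhH hhH' e'
      obtain rfl := Subtype.ext e1
      obtain rfl := Subtype.ext e2
      rfl
    · refine absurd ?_ hsB
      rw [show s = (u' : G)⁻¹ * ((v : G) * h) * ((v' : G) * h')⁻¹ by rw [e']; group]
      exact mul_mem (mul_mem (inv_mem (S.Ubar_le_Bbar (hUb u'.2))) (hB v.2 hhH)) (inv_mem (hB v'.2 hhH'))
    · refine absurd ?_ hsB
      rw [show s = (u : G)⁻¹ * ((v' : G) * h') * ((v : G) * h)⁻¹ by rw [← e']; group]
      exact mul_mem (mul_mem (inv_mem (S.Ubar_le_Bbar (hUb u.2))) (hB v'.2 hhH')) (inv_mem (hB v.2 hhH))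
    · have hw : (u' : G)⁻¹ * u ∈ U := fixPos_mul J (fixPos_inv J u'.2) u.2
      have hb : s⁻¹ * ((u' : G)⁻¹ * u) * s ∈ S.Vbar ⊓ S.Bbar := by
        refine Subgroup.mem_inf.2 ⟨?_, ?_⟩
        · have h1 := W.conj_neg_fix (inv_mem hsT) (hsc.inv hR) (B := O.negJ J) O.posJ_lt
            (fun r hr => by rw [act_wJ_reverse hR J hr.1.1]; exact O.act_wJ_mem hR J hr) hw
          rw [inv_inv] at h1
          exact S.US_mono (fun r hr => hr.1) h1.1
        · rw [show s⁻¹ * ((u' : G)⁻¹ * u) * s = ((v' : G) * h') * ((v : G) * h)⁻¹ by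
            calc s⁻¹ * ((u' : G)⁻¹ * u) * s
                = s⁻¹ * (u' : G)⁻¹ * ((u : G) * s * v * h) * ((v : G) * h)⁻¹ := by group
              _ = _ := by rw [e']; group]
          exact mul_mem (hB v'.2 hhH') (inv_mem (hB v.2 hhH))
      rw [S.Vbar_inf_Bbar hS hR, Subgroup.mem_bot] at hb
      have h2 : (u' : G)⁻¹ * u = 1 := by
        calc (u' : G)⁻¹ * u = s * (s⁻¹ * ((u' : G)⁻¹ * u) * s) * s⁻¹ := by group
          _ = 1 := by rw [hb]; group
      have h3 : u' = u := Subtype.ext (inv_mul_eq_one.1 h2)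
      subst h3
      obtain ⟨e1, e2⟩ := huniq (hUb v.2) (hUb v'.2) hhH hhH' (by
        simpa [mul_assoc] using e')
      obtain rfl := Subtype.ext e1
      obtain rfl := Subtype.ext e2
      rfl
  have hsurj : Function.Surjective φ := by
    rintro ⟨g, hg⟩
    rcases hcells g hg with ⟨u, hu, h, hh, rfl⟩ | ⟨u, hu, v, hv, h, hh, rfl⟩
    · exact ⟨(none, ⟨u, hu⟩, ⟨h, hh⟩), rfl⟩
    · exact ⟨(some ⟨u, hu⟩, ⟨v, hv⟩, ⟨h, hh⟩), rfl⟩
  rw [← Nat.card_eq_of_bijective φ ⟨hinj, hsurj⟩]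
  have : Finite ↥U := Subtype.finite
  simp only [Nat.card_prod, Finite.card_option]

section Rep

variable {n : ℕ}

/-- The product of the root elements of a commuting family of roots. -/
def aprod (A : Fin n → ℕ) (v : Fin n → F) : G := ((List.finRange n).map fun i => S.x (A i) (v i)).prod

/-- The hypotheses on a family of roots normalised linearly by a set of roots. -/
structure LinData (D : ChevalleyDatum) (A : Fin n → ℕ) (R : Set ℕ) : Prop where
  inj : Function.Injective A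
  pos : ∀ i, D.IsPosRoot (A i)
  comm : ∀ i j, i ≠ j → A j ≠ D.neg (A i) ∧ D.commTerms (A i) (A j) = []
  ne : ∀ r ∈ R, ∀ i, r < D.nroots ∧ A i ≠ r ∧ A i ≠ D.neg r
  lin : ∀ r ∈ R, ∀ i, ∀ c ∈ D.commTerms r (A i), (∃ j, A j = c.1) ∧ c.2.2.2 = 1

variable {A : Fin n → ℕ} {R : Set ℕ} (hA : LinData D A R)

include hA in
theorem aprod_add (v w : Fin n → F) :
    aprod (S := S) A (v + w) = aprod (S := S) A v * aprod (S := S) A w := by
  suffices h : ∀ l : List (Fin n), l.Nodup →
      (l.map fun i => S.x (A i) ((v + w) i)).prod =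
        (l.map fun i => S.x (A i) (v i)).prod * (l.map fun i => S.x (A i) (w i)).prod from
    h _ (List.nodup_finRange n)
  intro l hl
  induction l with
  | nil => simp
  | cons i l ih =>
    rw [List.nodup_cons] at hl
    have hc : Commute (S.x (A i) (w i)) (l.map fun j => S.x (A j) (v j)).prod := by
      refine Commute.list_prod_right _ _ fun g hg => ?_
      obtain ⟨j, hj, rfl⟩ := List.mem_map.1 hg
      have hne : i ≠ j := fun h => hl.1 (h ▸ hj)
      obtain ⟨h1, h2⟩ := hA.comm i j hne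
      exact x_commute S (hA.pos i).1 (hA.pos j).1 (fun h => hne (hA.inj h).symm) h1 h2 _ _
    rw [List.map_cons, List.map_cons, List.map_cons, List.prod_cons, List.prod_cons, List.prod_cons, ih hl.2,
      Pi.add_apply, ← S.x_add _ (hA.pos i).1]
    simp only [mul_assoc]
    rw [← mul_assoc (S.x (A i) (w i)), hc.eq, mul_assoc]

include hA in
theorem aprod_sum (l : List (Fin n → F)) :
    aprod (S := S) A l.sum = (l.map (aprod (S := S) A)).prod := by
  induction l with
  | nil =>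
    have h := aprod_add (S := S) hA (0 : Fin n → F) 0
    rw [add_zero] at h
    simpa using left_eq_mul.1 h
  | cons v l ih => rw [List.sum_cons, aprod_add hA, ih, List.map_cons, List.prod_cons]

include hA in
theorem aprod_single (i : Fin n) (t : F) :
    aprod (S := S) A (Pi.single i t) = S.x (A i) t := by
  rw [aprod, List.prod_map_eq_pow_single i]
  · rw [List.count_eq_one_of_mem (List.nodup_finRange n) (List.mem_finRange i), pow_one, Pi.single_eq_same]
  · intro j hj _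
    rw [Pi.single_eq_of_ne hj]
    have h := S.x_add _ (hA.pos j).1 0 0
    rw [add_zero] at h
    exact mul_eq_left.1 h

include hA in
theorem aprod_injective (hR : RootTable D len) : Function.Injective (aprod (S := S) A) := by
  classical
  intro v w e
  have hc : UClosed D len (htHom D) (Set.range A) :=
    hR.posSet_closed.subset_closed (fun r hr => by obtain ⟨i, rfl⟩ := hr; exact hA.pos i)
      fun r hr s hs hne c hc => by
        obtain ⟨i, rfl⟩ := hr
        obtain ⟨j, rfl⟩ := hs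
        have hij : i ≠ j := fun h => hne (h ▸ rfl)
        rw [(hA.comm i j hij).2] at hc
        exact absurd hc List.not_mem_nil
  have hL : Enum (Set.range A) ((List.finRange n).map A) :=
    ⟨(List.nodup_finRange n).map hA.inj, fun r => by simp⟩
  funext i
  let t : (Fin n → F) → ℕ → F := fun u r => if h : ∃ j, A j = r then u h.choose else 0
  have ht : ∀ u j, t u (A j) = u j := fun u j => by
    have h : ∃ k, A k = A j := ⟨j, rfl⟩
    simp only [t, dif_pos h]
    rw [hA.inj h.choose_spec]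
  have hP : ∀ u, S.P ((List.finRange n).map A) (t u) = aprod (S := S) A u := fun u => by
    rw [Sys.P, aprod, List.map_map]
    congr 1
    exact List.map_congr_left fun j _ => by simp [ht]
  have h := S.coef_unique hR hc hL (t := t v) (t' := t w) (congrArg S.θ (by rw [hP, hP, e])) (A i) ⟨i, rfl⟩
  rwa [ht, ht] at h

/-- The action of `g` on the family is linear. -/
def IsLin (A : Fin n → ℕ) (g : G) : Prop :=
  ∃ M : Module.End F (Fin n → F), ∀ v, g * aprod (S := S) A v * g⁻¹ = aprod (S := S) A (M v)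

include hA in
theorem isLin_x {r : ℕ} (hr : r ∈ R) (t : F) : IsLin (S := S) A (S.x r t)⁻¹ := by
  classical
  let idx : ℕ → Fin n → F := fun a j => if A j = a then 1 else 0
  let col : Fin n → (Fin n → F) := fun i => Pi.single i (1 : F) +
    (((D.commTerms r (A i)).map fun c => ((c.2.1 : F) * (-t) ^ c.2.2.1) • idx c.1)).sum
  refine ⟨∑ i, (LinearMap.proj i).smulRight (col i), fun v => ?_⟩
  have hone : ∀ i : Fin n, ∀ u : F,
      (S.x r t)⁻¹ * S.x (A i) u * ((S.x r t)⁻¹)⁻¹ = aprod (S := S) A (u • col i) := by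
    intro i u
    obtain ⟨hrlt, h1, h2⟩ := hA.ne r hr i
    have e := S.comm r hrlt (A i) (hA.pos i).1 h1 h2 t u
    rw [inv_inv, mul_assoc, e, ← mul_assoc, ← mul_assoc, inv_mul_cancel, one_mul, smul_add,
      List.smul_sum, List.map_map, aprod_add hA, aprod_sum hA, List.map_map, ← Pi.single_smul', smul_eq_mul,
      mul_one, aprod_single hA, ChevalleyDatum.commWord, List.map_map]
    congr 2
    refine List.map_congr_left fun c hc => ?_
    obtain ⟨⟨j, hj⟩, he⟩ := hA.lin r hr i c hc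
    simp only [Function.comp_apply]
    have : u • ((c.2.1 : F) * (-t) ^ c.2.2.1) • idx c.1 = Pi.single j ((c.2.1 : F) * (-t) ^ c.2.2.1 * u) := by
      funext k
      by_cases hk : k = j
      · subst hk
        simp [idx, hj, mul_comm]
      · have : A k ≠ c.1 := fun h => hk (hA.inj (h.trans hj.symm))
        simp [idx, this, Pi.single_eq_of_ne hk]
    rw [this, aprod_single hA, hj, he, pow_one]
  have hsum : (∑ i, (LinearMap.proj i).smulRight (col i) : Module.End F (Fin n → F)) v =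
      ((List.finRange n).map fun i => v i • col i).sum := by
    rw [LinearMap.sum_apply, ← List.sum_toFinset _ (List.nodup_finRange n), List.toFinset_finRange]
    rfl
  rw [hsum, aprod_sum hA, List.map_map]
  show (S.x r t)⁻¹ * ((List.finRange n).map fun i => S.x (A i) (v i)).prod * ((S.x r t)⁻¹)⁻¹ = _
  generalize List.finRange n = l
  induction l with
  | nil => simp
  | cons i l ih =>
    simp only [List.map_cons, List.prod_cons, Function.comp_apply]
    rw [← hone i (v i)]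
    simp only [Function.comp_def, inv_inv] at ih ⊢
    rw [← ih]
    group

include hA in
/-- The representation on the family. -/
theorem exists_rep [Finite G] (hR : RootTable D len) (L : Subgroup G) (hL : L ≤ S.US R) :
    ∃ φ : ↥L →* Module.End F (Fin n → F),
      ∀ (g : ↥L) v, (g : G) * aprod (S := S) A v * (g : G)⁻¹ = aprod (S := S) A (φ g v) := by
  have hmul : ∀ g h, IsLin (S := S) A g → IsLin (S := S) A h → IsLin (S := S) A (g * h) := by
    rintro g h ⟨M, hM⟩ ⟨M', hM'⟩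
    refine ⟨M * M', fun v => ?_⟩
    rw [Module.End.mul_apply, ← hM, ← hM']
    group
  have hone : IsLin (S := S) A (1 : G) := ⟨1, fun v => by simp⟩
  have hlin : ∀ g ∈ S.US R, IsLin (S := S) A g := by
    have hpow : ∀ g, IsLin (S := S) A g → ∀ k : ℕ, IsLin (S := S) A (g ^ k) := fun g hg k => by
      induction k with
      | zero => simpa using hone
      | succ k ih => rw [pow_succ]; exact hmul _ _ ih hg
    have hinv : ∀ g, IsLin (S := S) A g → IsLin (S := S) A g⁻¹ := fun g hg => by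
      have : g⁻¹ = g ^ (orderOf g - 1) := inv_eq_of_mul_eq_one_right (by
        rw [← pow_succ', Nat.sub_add_cancel (orderOf_pos g), pow_orderOf_eq_one])
      rw [this]
      exact hpow g hg _
    intro g hg
    induction hg using Subgroup.closure_induction with
    | mem g hg =>
      obtain ⟨r, hr, t, rfl⟩ := hg
      simpa using hinv _ (isLin_x hA hr t)
    | one => exact hone
    | mul a b _ _ ha hb => exact hmul a b ha hb
    | inv a _ ha => exact hinv a ha
  choose M hM using fun g : ↥L => hlin g (hL g.2)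
  have hinj := aprod_injective (S := S) hA hR
  let φ : ↥L →* Module.End F (Fin n → F) :=
    { toFun := M
      map_one' := LinearMap.ext fun v => hinj (by rw [← hM]; simp)
      map_mul' := fun g h => LinearMap.ext fun v => hinj (by
        rw [← hM, Module.End.mul_apply, ← hM, ← hM]
        push_cast
        group) }
  exact ⟨φ, hM⟩

/-- A representation by endomorphisms of a finite group as one by invertible matrices. -/
theorem exists_gl_of_end {L : Type*} [Group L] {n : ℕ} (φ : L →* Module.End F (Fin n → F)) :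
    ∃ ρ : L →* GL (Fin n) F, ∀ g, ρ g = 1 → φ g = 1 :=
  ⟨Matrix.GeneralLinearGroup.toLin.symm.toMonoidHom.comp φ.toHomUnits, fun _ hg =>
    congrArg Units.val (Matrix.GeneralLinearGroup.toLin.symm.map_eq_one_iff.1 hg)⟩

/-- Dropping a fixed last coordinate. -/
theorem exists_minor {L : Type*} [Group L] {n : ℕ} (φ : L →* Module.End F (Fin (n + 1) → F))
    (hfix : ∀ g, φ g (Pi.single (Fin.last n) 1) = Pi.single (Fin.last n) 1) :
    ∃ ψ : L →* Module.End F (Fin n → F), ∀ g, ψ g = 1 →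
      ∀ v : Fin n → F, ∃ c : F, φ g (Fin.snoc v 0) = Fin.snoc v 0 + c • Pi.single (Fin.last n) 1 := by
  let π : (Fin (n + 1) → F) →ₗ[F] (Fin n → F) := LinearMap.funLeft F F Fin.castSucc
  let e : Fin (n + 1) → F := Pi.single (Fin.last n) 1
  let ι : (Fin n → F) →ₗ[F] (Fin (n + 1) → F) :=
    { toFun := fun v => Fin.snoc v 0
      map_add' := fun v w => by
        funext i
        induction i using Fin.lastCases <;> simp
      map_smul' := fun c v => by
        funext i
        induction i using Fin.lastCases <;> simp }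
  have hdec : ∀ w : Fin (n + 1) → F, w = ι (π w) + w (Fin.last n) • e := fun w => by
    funext i
    induction i using Fin.lastCases <;> simp [ι, π, e, LinearMap.funLeft]
  have hπe : π e = 0 := by funext i; simp [π, e, LinearMap.funLeft]
  let ψ : L →* Module.End F (Fin n → F) :=
    { toFun := fun g => π ∘ₗ (φ g) ∘ₗ ι
      map_one' := LinearMap.ext fun v => by funext i; simp [π, ι, LinearMap.funLeft]
      map_mul' := fun g h => LinearMap.ext fun v => by
        simp only [map_mul, Module.End.mul_apply, LinearMap.comp_apply]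
        conv_lhs => rw [hdec (φ h (ι v))]
        rw [map_add, map_smul, hfix, map_add, map_smul, hπe, smul_zero, add_zero] }
  refine ⟨ψ, fun g hg v => ⟨φ g (ι v) (Fin.last n), ?_⟩⟩
  have h := hdec (φ g (ι v))
  rwa [show π (φ g (ι v)) = v from LinearMap.congr_fun hg v] at h

end Rep

section Cyclic

variable {n : ℕ}

include W in
/-- The elements of the group of an orbit centralising a suitable root group are in the Borel part. -/
theorem cell_of_commute [Finite G] (hS : Rules D F) (hR : RootTable D len) (J : ι) {a₀ : ℕ}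
    (ha₀ : a₀ < D.nroots) (hne : act D (O.wJ J) a₀ ≠ a₀)
    (hcom : ∀ r ∈ O.posJ J, ∀ t u : F, Commute (S.x r t) (S.x a₀ u)) {g : G}
    (hg : g ∈ levi (O := O) J) (hgx : ∀ t, Commute g (S.x a₀ t)) :
    ∃ u ∈ fixUS T (O.posJ J), ∃ h ∈ S.Hbar ⊓ levi (O := O) J, g = u * h := by
  obtain ⟨s, -, hsc, -, hcells⟩ := exists_levi_cells W hS hR J
  rcases hcells g hg with h | ⟨u, hu, v, hv, h, hh, rfl⟩
  · exact h
  exfalso
  have hU : ∀ w ∈ S.US (O.posJ J), ∀ t, w * S.x a₀ t * w⁻¹ = S.x a₀ t := fun w hw t => by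
    rw [mul_inv_eq_iff_eq_mul]
    induction hw using Subgroup.closure_induction with
    | mem w hw =>
      obtain ⟨r, hr, t', rfl⟩ := hw
      exact (hcom r hr t' t).eq
    | one => simp
    | mul a b _ _ ha hb => rw [mul_assoc, hb, ← mul_assoc, ha, mul_assoc]
    | inv a _ ha => rw [inv_mul_eq_iff_eq_mul, ← mul_assoc, ha, mul_inv_cancel_right]
  obtain ⟨a, ha0, ha⟩ := S.conjP_Hbar hS hR (Subgroup.mem_inf.1 hh).1
  obtain ⟨b, hb0, hb⟩ := hsc
  have e1 : h * S.x a₀ 1 * h⁻¹ = S.x a₀ (a a₀ * 1) := by simpa [act_nil] using ha a₀ ha₀ 1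
  have e2 := hb a₀ ha₀ (a a₀ * 1)
  have key : u * S.x (act D (O.wJ J) a₀) (b a₀ * (a a₀ * 1)) * u⁻¹ = S.x a₀ 1 := by
    calc u * S.x (act D (O.wJ J) a₀) (b a₀ * (a a₀ * 1)) * u⁻¹
        = u * (s * (v * (h * S.x a₀ 1 * h⁻¹) * v⁻¹) * s⁻¹) * u⁻¹ := by rw [e1, hU v hv.1, e2]
      _ = (u * s * v * h) * S.x a₀ 1 * (u * s * v * h)⁻¹ := by group
      _ = S.x a₀ 1 := mul_inv_eq_iff_eq_mul.2 (hgx 1).eq
  have key' : S.x (act D (O.wJ J) a₀) (b a₀ * (a a₀ * 1)) = S.x a₀ 1 := by
    calc S.x (act D (O.wJ J) a₀) (b a₀ * (a a₀ * 1))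
        = u⁻¹ * (u * S.x (act D (O.wJ J) a₀) (b a₀ * (a a₀ * 1)) * u⁻¹) * u⁻¹⁻¹ := by group
      _ = u⁻¹ * S.x a₀ 1 * u⁻¹⁻¹ := by rw [key]
      _ = S.x a₀ 1 := hU u⁻¹ (inv_mem hu.1) 1
  exact hne (S.x_root_inj hR ha₀ (hR.act_lt _ ha₀) one_ne_zero key'.symm).symm

include W in
/-- If the group of an orbit has a representation in dimension `n`, with controlled kernel, and `GL n` has
cyclic Sylow `r`-subgroups then its multiplier has no `r`-part. -/
theorem not_dvd_schurMult_levi [Finite G] [Fintype F] (hS : Rules D F) (hR : RootTable D len) (J : ι)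
    (ρ : ↥(levi (O := O) J) →* GL (Fin n) F) {a₀ : ℕ} (ha₀ : a₀ < D.nroots)
    (hker : ∀ g, ρ g = 1 → ∀ t, Commute ((g : G) * (g : G)) (S.x a₀ t))
    (hne : act D (O.wJ J) a₀ ≠ a₀)
    (hcom : ∀ r ∈ O.posJ J, ∀ t u : F, Commute (S.x r t) (S.x a₀ u)) {r : ℕ} [Fact r.Prime] (hr2 : r ≠ 2)
    (hU : ¬ r ∣ Nat.card ↥(S.Ubar ⊓ W.Tw)) (hH : ¬ r ∣ Nat.card ↥(S.Hbar ⊓ W.Tw))
    (hnr : n < r) (hrq : ¬ r ∣ Fintype.card F) (hd : n / orderOf (Fintype.card F : ZMod r) ≤ 1) :
    ¬ r ∣ Nat.card (schurMult ↥(levi (O := O) J)) := by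
  obtain ⟨P⟩ : Nonempty (Sylow r ↥(levi (O := O) J)) := inferInstance
  refine not_dvd_card_schurMult_of_subgroup r P.toSubgroup P.not_dvd_index ?_
  have hinj : Function.Injective (ρ.comp P.toSubgroup.subtype) := by
    rw [injective_iff_map_eq_one]
    intro g₀ hg₀
    suffices h2 : g₀ * g₀ = 1 by
      obtain ⟨k, hk⟩ := P.2 g₀
      have h1 : orderOf g₀ ∣ r ^ k := orderOf_dvd_of_pow_eq_one hk
      have h3 : orderOf g₀ ∣ 2 := orderOf_dvd_of_pow_eq_one (by rw [pow_two, h2])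
      exact orderOf_eq_one_iff.1 (Nat.eq_one_of_dvd_coprimes
        (Nat.Coprime.pow_right k ((Nat.coprime_primes Nat.prime_two (Fact.out : r.Prime)).2 hr2.symm)) h3 h1)
    obtain ⟨g, hgdef⟩ : ∃ g, g = g₀ * g₀ := ⟨_, rfl⟩
    rw [← hgdef]
    obtain ⟨u, hu, h, hh, e⟩ := cell_of_commute W hS hR J ha₀ hne hcom (g : ↥(levi (O := O) J)).2
      (fun t => by rw [hgdef]; exact hker (g₀ : ↥(levi (O := O) J)) hg₀ t)
    obtain ⟨hhH, hhL⟩ := Subgroup.mem_inf.1 hh
    have huT : u ∈ S.Ubar ⊓ W.Tw := posJ_mem_U W J hu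
    have hhT : h ∈ S.Hbar ⊓ W.Tw := Subgroup.mem_inf.2 ⟨hhH, levi_le W J hhL⟩
    obtain ⟨k, hk⟩ := P.2 g
    have hk1 : (u * h) ^ r ^ k = 1 := by
      rw [← e]; exact congrArg (fun x : ↥P.toSubgroup => ((x : ↥(levi (O := O) J)) : G)) hk
    have hpow : ∀ j : ℕ, ∃ w ∈ S.Ubar, (u * h) ^ j = w * h ^ j := by
      intro j
      induction j with
      | zero => exact ⟨1, one_mem _, by simp⟩
      | succ j ih =>
        obtain ⟨w, hw, ej⟩ := ih
        refine ⟨w * (h ^ j * u * (h ^ j)⁻¹), mul_mem hw ?_, by rw [pow_succ, ej, pow_succ]; group⟩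
        exact (Subgroup.mem_normalizer_iff.1 (S.Hbar_le_normalizer_Ubar hS hR (pow_mem hhH j)) u).1 huT.1
    obtain ⟨w, hw, ew⟩ := hpow (r ^ k)
    rw [hk1] at ew
    have hh1 : h ^ r ^ k = 1 := by
      have hm : h ^ r ^ k ∈ S.Ubar ⊓ S.Hbar := Subgroup.mem_inf.2
        ⟨by rw [eq_inv_of_mul_eq_one_right ew.symm]; exact inv_mem hw, pow_mem hhH _⟩
      rwa [S.Ubar_inf_Hbar hS hR, Subgroup.mem_bot] at hm
    have hone : ∀ {K : Subgroup G} {x : G}, x ∈ K → ¬ r ∣ Nat.card ↥K → x ^ r ^ k = 1 → x = 1 := by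
      intro K x hx hK hx'
      have h1 := orderOf_dvd_of_pow_eq_one hx'
      have h2 := Subgroup.orderOf_dvd_natCard K hx
      have hco : Nat.Coprime (Nat.card ↥K) (r ^ k) :=
        Nat.Coprime.pow_right k ((Fact.out : r.Prime).coprime_iff_not_dvd.2 hK).symm
      exact orderOf_eq_one_iff.1 (Nat.eq_one_of_dvd_coprimes hco h2 h1)
    have hh' : h = 1 := hone hhT hH hh1
    rw [hh', mul_one] at hk1 e
    have hu' : u = 1 := hone huT hU hk1
    exact Subtype.ext (Subtype.ext (e.trans hu'))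
  obtain ⟨Q, hQ⟩ := (P.2.map ρ).exists_le_sylow
  obtain ⟨eQ⟩ := SylowLarge.gl_sylow (F := F) hnr hrq Q
  haveI : IsCyclic ↥(Q : Subgroup (GL (Fin n) F)) := by
    rcases Nat.le_one_iff_eq_zero_or_eq_one.1 hd with h0 | h0
    · haveI : Subsingleton ↥(Q : Subgroup (GL (Fin n) F)) := by
        rw [h0] at eQ
        exact eQ.toEquiv.subsingleton
      infer_instance
    · rw [h0] at eQ
      exact isCyclic_of_surjective
        (eQ.trans (MulEquiv.funUnique (Fin 1) _)).symm (MulEquiv.surjective _)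
  let j : ↥P.toSubgroup →* ↥(Q : Subgroup (GL (Fin n) F)) :=
    (ρ.comp P.toSubgroup.subtype).codRestrict _ fun x => hQ ⟨x, x.2, rfl⟩
  haveI : IsCyclic ↥P.toSubgroup := isCyclic_of_injective j
    (fun a b e => hinj (congrArg Subtype.val e))
  exact not_dvd_card_schurMult_of_isCyclic Fact.out

end Cyclic

end Cfsg.Agent.CentralExt.TwCells
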