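import Cfsg.Agent.CentralExt.Free
import Mathlib.GroupTheory.SchurZassenhaus

/-!
# Lifts of subgroups of order prime to the exponent of a central kernel (owner: helper85)
-/

set_option autoImplicit false
set_option linter.style.haveILetI false

namespace Cfsg.Agent.CentralExt.TwCells

universe u v

open Subgroup
open scoped commutatorElement

variable {E : Type u} {G : Type v} [Group E] [Group G] {f : E →* G} {r : ℕ}

theorem eq_one_of_pow [Fact r.Prime] (hk : IsPGroup r f.ker) {z : E} (hz : f z = 1) {n : ℕ}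
    (hn : z ^ n = 1) (hr : ¬ r ∣ n) : z = 1 := by
  obtain ⟨k, hk'⟩ := hk ⟨z, hz⟩
  have h1 : z ^ r ^ k = 1 := congrArg Subtype.val hk'
  have h2 : z ^ Nat.gcd n (r ^ k) = 1 := pow_gcd_eq_one.2 ⟨hn, h1⟩
  rwa [(Nat.Coprime.pow_right k ((Fact.out : r.Prime).coprime_iff_not_dvd.2 hr).symm).gcd_eq_one,
    pow_one] at h2

/-- Two lifts of one element with the same exponent prime to `r` agree. -/
theorem eq_of_pow [Fact r.Prime] (hc : f.ker ≤ center E) (hk : IsPGroup r f.ker) {x y : E}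
    (h : f x = f y) {n : ℕ} (hr : ¬ r ∣ n) (hx : x ^ n = 1) (hy : y ^ n = 1) : x = y := by
  have hz : f (x⁻¹ * y) = 1 := by rw [map_mul, map_inv, h, inv_mul_cancel]
  have hcomm : Commute x (x⁻¹ * y) := mem_center_iff.1 (hc hz) x
  have h1 : (x⁻¹ * y) ^ n = 1 := by
    have h2 := hcomm.mul_pow n
    rw [mul_inv_cancel_left, hx, hy, one_mul] at h2
    exact h2.symm
  exact inv_mul_eq_one.1 (eq_one_of_pow hk hz h1 hr)

/-- The lift of a subgroup of order prime to `r`. -/
theorem exists_lift [Finite E] [Fact r.Prime] (hc : f.ker ≤ center E) (hk : IsPGroup r f.ker)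
    {K : Subgroup G} (hK : K ≤ f.range) (hr : ¬ r ∣ Nat.card K) :
    ∃ K' : Subgroup E, K'.map f = K ∧ K' ⊓ f.ker = ⊥ ∧
      ∀ x, x ∈ K' ↔ f x ∈ K ∧ x ^ Nat.card K = 1 := by
  set P := K.comap f with hP
  set g : P →* K := f.subgroupComap K with hg
  have hsurj : Function.Surjective g := by
    rintro ⟨y, hy⟩
    obtain ⟨x, rfl⟩ := hK hy
    exact ⟨⟨x, hy⟩, rfl⟩
  have hgk : ∀ x : P, x ∈ g.ker ↔ f x = 1 := fun x => by
    rw [MonoidHom.mem_ker]
    exact ⟨fun h => congrArg Subtype.val h, fun h => Subtype.ext h⟩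
  have hidx : g.ker.index = Nat.card K := by
    rw [Subgroup.index_ker, MonoidHom.range_eq_top.2 hsurj, Subgroup.card_top]
  obtain ⟨k, hk'⟩ := hk.exists_card_eq
  have hcard : Nat.card g.ker ∣ r ^ k := by
    rw [← hk']
    exact Subgroup.card_dvd_of_injective
      ((P.subtype.comp g.ker.subtype).codRestrict f.ker fun x => (hgk x.1).1 x.2)
      (fun a b e => Subtype.ext (Subtype.ext (congrArg Subtype.val e :)))
  have hco : Nat.Coprime (Nat.card g.ker) g.ker.index := by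
    rw [hidx]
    exact ((Nat.Coprime.pow_right k ((Fact.out : r.Prime).coprime_iff_not_dvd.2 hr).symm).coprime_dvd_right
      hcard).symm
  obtain ⟨C, hC⟩ := Subgroup.exists_right_complement'_of_coprime hco
  have hCc : Nat.card C = Nat.card K := by
    rw [← hidx]; exact hC.symm.index_eq_card.symm
  have key : ∀ x : E, x ∈ C.map P.subtype ↔ f x ∈ K ∧ x ^ Nat.card K = 1 := by
    intro x
    constructor
    · rintro ⟨c, hc', rfl⟩
      refine ⟨c.2, ?_⟩
      have h := (pow_card_eq_one' (x := (⟨c, hc'⟩ : C)))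
      rw [hCc] at h
      exact congrArg (fun y : C => ((y : P) : E)) h
    · rintro ⟨hx, hp⟩
      obtain ⟨⟨⟨z, hz⟩, ⟨c, hc'⟩⟩, e⟩ := hC.2 (⟨x, hx⟩ : P)
      have e' : (z : E) * (c : E) = x := congrArg Subtype.val e
      have hzc : Commute (z : E) (c : E) := (mem_center_iff.1 (hc ((hgk z).1 hz)) _).symm
      have hc1 : (c : E) ^ Nat.card K = 1 := by
        have h := (pow_card_eq_one' (x := (⟨c, hc'⟩ : C)))
        rw [hCc] at h
        exact congrArg (fun y : C => ((y : P) : E)) h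
      rw [← e', hzc.mul_pow, hc1, mul_one] at hp
      exact ⟨c, hc', by
        rw [← e', eq_one_of_pow hk ((hgk z).1 hz) hp hr, one_mul]; rfl⟩
  refine ⟨C.map P.subtype, ?_, ?_, key⟩
  · refine le_antisymm ?_ fun y hy => ?_
    · rintro _ ⟨x, hx, rfl⟩
      exact ((key x).1 hx).1
    · obtain ⟨x, rfl⟩ := hK hy
      obtain ⟨⟨⟨z, hz⟩, ⟨c, hc'⟩⟩, e⟩ := hC.2 (⟨x, hy⟩ : P)
      refine ⟨c, ⟨c, hc', rfl⟩, ?_⟩
      rw [← show (z : E) * (c : E) = x from congrArg Subtype.val e, map_mul, (hgk z).1 hz, one_mul]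
  · rw [eq_bot_iff]
    rintro x ⟨hx, hx1⟩
    exact Subgroup.mem_bot.2 (eq_one_of_pow hk hx1 ((key x).1 hx).2 hr)

/-- A subgroup generated by elements of exponent prime to `r` meets the kernel trivially if the
multiplier of its image has no `r`-part. -/
theorem inf_ker_eq_bot [Finite E] [Fact r.Prime] (hc : f.ker ≤ center E) (hk : IsPGroup r f.ker)
    (L : Subgroup E) (H : Subgroup G) (hmap : L.map f = H) (hH : ¬ r ∣ Nat.card (schurMult H)) {S : Set E}
    (hL : L = closure S) {n : ℕ} (hn : ¬ r ∣ n) (hS : ∀ x ∈ S, x ^ n = 1) : L ⊓ f.ker = ⊥ := by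
  let π : L →* H := (f.comp L.subtype).codRestrict H fun x => hmap ▸ mem_map_of_mem f x.2
  have hπ : Function.Surjective π := by
    rintro ⟨y, hy⟩
    rw [← hmap] at hy
    obtain ⟨x, hx, rfl⟩ := hy
    exact ⟨⟨x, hx⟩, rfl⟩
  have hπk : ∀ x : L, π x = 1 → f x = 1 := fun x h => congrArg Subtype.val h
  have hc' : π.ker ≤ center L := fun z hz => mem_center_iff.2 fun g =>
    Subtype.ext (mem_center_iff.1 (hc (hπk z hz)) (g : E))
  have hk' : IsPGroup r π.ker := fun ⟨x, hx⟩ => by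
    obtain ⟨k, hk1⟩ := hk ⟨x, hπk x hx⟩
    exact ⟨k, Subtype.ext (Subtype.ext (congrArg Subtype.val hk1 : (x : E) ^ r ^ k = 1))⟩
  rw [eq_bot_iff]
  rintro z ⟨hzL, hz⟩
  have hab : ∀ x (hx : x ∈ L), Abelianization.of (⟨x, hx⟩ : L) ^ n = 1 := by
    intro x hx
    have hx' : x ∈ closure S := hL ▸ hx
    induction hx' using Subgroup.closure_induction with
    | mem x hxS => rw [← map_pow, show (⟨x, hx⟩ : L) ^ n = 1 from Subtype.ext (hS x hxS), map_one]
    | one => rw [show (⟨1, hx⟩ : L) = 1 from rfl, map_one, one_pow]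
    | mul a b ha hb iha ihb =>
      have ha' : a ∈ L := hL ▸ ha
      have hb' : b ∈ L := hL ▸ hb
      rw [show (⟨a * b, hx⟩ : L) = ⟨a, ha'⟩ * ⟨b, hb'⟩ from rfl, map_mul, mul_pow, iha ha', ihb hb',
        one_mul]
    | inv a ha iha =>
      have ha' : a ∈ L := hL ▸ ha
      rw [show (⟨a⁻¹, hx⟩ : L) = (⟨a, ha'⟩)⁻¹ from rfl, map_inv, inv_pow, iha ha', inv_one]
  have hzp : (⟨z, hzL⟩ : L) ^ n ∈ commutator L := by
    rw [← Abelianization.ker_of, MonoidHom.mem_ker, map_pow]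
    exact hab z hzL
  have hπz : π ⟨z, hzL⟩ = 1 := Subtype.ext hz
  have h1 : (⟨z, hzL⟩ : L) ^ n = 1 :=
    Free.eq_one_of_free hH hπ hc' hk' (by rw [map_pow, hπz, one_pow]) hzp
  exact Subgroup.mem_bot.2 (eq_one_of_pow hk hz (congrArg Subtype.val h1) hn)

end Cfsg.Agent.CentralExt.TwCells
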